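import Mathlib
import Cfsg.Agent.H8.Basic

set_option autoImplicit false

namespace CfsgH8

open MulAction

section
variable {G Ω : Type*} [Group G] [MulAction G Ω] [Finite Ω]

theorem finite_of_sharp_two (h2 : 2 ≤ Nat.card Ω)
    (hs : ∀ (g : G) (a b : Ω), a ≠ b → g • a = a → g • b = b → g = 1) : Finite G := by
  have : Nontrivial Ω := Finite.one_lt_card_iff_nontrivial.mp h2
  obtain ⟨a, b, hab⟩ := exists_pair_ne Ω
  refine Finite.of_injective (fun g : G => (g • a, g • b)) fun x y h => ?_
  simp only [Prod.mk.injEq] at h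
  have := hs (y⁻¹ * x) a b hab (by rw [mul_smul, h.1, inv_smul_smul])
    (by rw [mul_smul, h.2, inv_smul_smul])
  rw [inv_mul_eq_one] at this
  exact this.symm

/-- In a transitive group whose two-point stabilisers are trivial there are exactly `n - 1`
fixed-point-free elements. -/
theorem ncard_fpf_of_frobenius [Finite G] [IsPretransitive G Ω] [Nonempty Ω]
    (hs : ∀ (g : G) (a b : Ω), a ≠ b → g • a = a → g • b = b → g = 1) (h2 : 2 ≤ Nat.card Ω) :
    {g : G | ∀ a : Ω, g • a ≠ a}.ncard + 1 = Nat.card Ω := by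
  classical
  have := Fintype.ofFinite G
  have h := sum_card_fixedBy_of_transitive (G := G) (Ω := Ω)
  have h1 : ∀ g : G, Nat.card (fixedBy Ω g) + (if ∀ a : Ω, g • a ≠ a then 1 else 0) =
      1 + (if g = 1 then Nat.card Ω - 1 else 0) := by
    intro g
    by_cases hg : g = 1
    · subst hg
      have : ¬ ∀ a : Ω, (1 : G) • a ≠ a := by simp
      rw [if_neg this, if_pos rfl, fixedBy_one_eq_univ, Nat.card_univ]
      omega
    · rw [if_neg hg]
      by_cases hf : ∀ a : Ω, g • a ≠ a
      · rw [if_pos hf]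
        have : fixedBy Ω g = ∅ := by
          ext a; simpa using hf a
        simp [this]
      · rw [if_neg hf]
        push Not at hf
        obtain ⟨a, ha⟩ := hf
        have : fixedBy Ω g = {a} := by
          ext b
          simp only [mem_fixedBy, Set.mem_singleton_iff]
          refine ⟨fun hb => ?_, fun hb => hb ▸ ha⟩
          by_contra hne
          exact hg (hs g b a hne hb ha)
        simp [this]
  have h3 := Finset.sum_congr (s₁ := Finset.univ) rfl fun g _ => h1 g
  rw [Finset.sum_add_distrib, Finset.sum_add_distrib, h] at h3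
  simp only [Finset.sum_const, Finset.card_univ, smul_eq_mul, mul_one, Finset.sum_ite_eq',
    Finset.mem_univ, if_true, ← Nat.card_eq_fintype_card] at h3
  rw [← Finset.card_filter] at h3
  have h4 : {g : G | ∀ a : Ω, g • a ≠ a}.ncard =
      (Finset.univ.filter fun g : G => ∀ a : Ω, g • a ≠ a).card := by
    rw [← Set.ncard_coe_finset]; congr 1; ext; simp
  omega

theorem card_stabilizer_of_sharp_two
    (ht : ∀ a b c d : Ω, a ≠ b → c ≠ d → ∃ g : G, g • a = c ∧ g • b = d)
    (hs : ∀ (g : G) (a b : Ω), a ≠ b → g • a = a → g • b = b → g = 1) (h2 : 2 ≤ Nat.card Ω)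
    (a : Ω) : Nat.card (stabilizer G a) + 1 = Nat.card Ω := by
  have : Nontrivial Ω := Finite.one_lt_card_iff_nontrivial.mp h2
  obtain ⟨b, hb⟩ := exists_ne a
  have e : stabilizer G a ≃ {x : Ω // x ≠ a} := by
    refine Equiv.ofBijective (fun g => ⟨(g : G) • b, fun h => hb ?_⟩) ⟨?_, ?_⟩
    · have h1 : (g : G) • a = a := g.2
      exact MulAction.injective (g : G) (h.trans h1.symm)
    · intro x y h
      have h' : (x : G) • b = (y : G) • b := congrArg Subtype.val h
      have hx : (x : G) • a = a := x.2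
      have hy : (y : G) • a = a := y.2
      have := hs ((y : G)⁻¹ * x) a b hb.symm (by rw [mul_smul, hx, inv_smul_eq_iff, hy])
        (by rw [mul_smul, h', inv_smul_smul])
      rw [inv_mul_eq_one] at this
      exact Subtype.ext this.symm
    · rintro ⟨x, hx⟩
      obtain ⟨g, h1, h2⟩ := ht a b a x hb.symm hx.symm
      exact ⟨⟨g, h1⟩, Subtype.ext h2⟩
  rw [Nat.card_congr e]
  exact SubMulAction.nat_card_ofStabilizer_add_one_eq G a

/-- Structure of finite sharply 2-transitive groups. -/
theorem sharp_two_structure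
    (ht : ∀ a b c d : Ω, a ≠ b → c ≠ d → ∃ g : G, g • a = c ∧ g • b = d)
    (hs : ∀ (g : G) (a b : Ω), a ≠ b → g • a = a → g • b = b → g = 1) (h2 : 2 ≤ Nat.card Ω) :
    ∃ p j : ℕ, p.Prime ∧ 1 ≤ j ∧ Nat.card Ω = p ^ j ∧ ∀ (_ : Fact p.Prime) (P : Sylow p G),
      (P : Subgroup G).Normal ∧ IsMulCommutative (P : Subgroup G) ∧
      (∀ x ∈ (P : Subgroup G), x ^ p = 1) ∧ IsPretransitive (P : Subgroup G) Ω ∧
      (∀ a : Ω, stabilizer (P : Subgroup G) a = ⊥) ∧
      (∀ g : G, g ∈ (P : Subgroup G) ↔ g = 1 ∨ ∀ a : Ω, g • a ≠ a) ∧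
      Nat.card (P : Subgroup G) = Nat.card Ω := by
  have hnt : Nontrivial Ω := Finite.one_lt_card_iff_nontrivial.mp h2
  have hfin : Finite G := finite_of_sharp_two h2 hs
  have htr2 : IsMultiplyPretransitive G Ω 2 :=
    (is_two_pretransitive_iff.mpr fun {a b c d} => ht a b c d)
  have htr : IsPretransitive G Ω := isPretransitive_of_is_two_pretransitive
  obtain ⟨a₀⟩ : Nonempty Ω := inferInstance
  have hst := card_stabilizer_of_sharp_two ht hs h2
  have hG := card_eq_mul_stabilizer (G := G) a₀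
  have hF := ncard_fpf_of_frobenius hs h2
  set n := Nat.card Ω with hn
  have hG' : Nat.card G = n * (n - 1) := by rw [hG, ← hst a₀]; simp
  have hcop : Nat.Coprime n (n - 1) := by
    have : n = (n - 1) + 1 := by omega
    conv_lhs => rw [this]
    simp
  -- elements whose order is not coprime ... are fixed point free
  have hfix : ∀ (g : G) (a : Ω), g • a = a → orderOf g ∣ n - 1 := by
    intro g a ha
    have := (stabilizer G a).orderOf_dvd_natCard (x := g) ha
    rwa [show Nat.card (stabilizer G a) = n - 1 by have := hst a; omega] at this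
  have hconj : ∀ x y : G, (∀ a : Ω, x • a ≠ a) → (∀ a : Ω, y • a ≠ a) → IsConj x y := by
    intro x y hx hy
    have h1 := ncard_conj_mul_card_centralizer x
    have h3 : Nat.card (Subgroup.centralizer ({x} : Set G)) ≤ n := by
      refine card_le_of_semiregular a₀ _ fun g hg ha => hs g a₀ (x • a₀) (hx a₀).symm ha ?_
      have := Subgroup.mem_centralizer_singleton_iff.mp hg
      rw [← mul_smul, this, mul_smul, ha]
    have hsub : {y | IsConj x y} ⊆ {g : G | ∀ a : Ω, g • a ≠ a} := by
      intro y hy a ha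
      obtain ⟨c, rfl⟩ := isConj_iff.mp hy
      apply hx (c⁻¹ • a)
      rw [mul_smul, mul_smul, smul_eq_iff_eq_inv_smul] at ha
      exact ha
    have h4 : {g : G | ∀ a : Ω, g • a ≠ a}.ncard ≤ {y | IsConj x y}.ncard := by
      have h5 : n * (n - 1) ≤ n * {y | IsConj x y}.ncard := by
        rw [← hG', ← h1, mul_comm]
        exact Nat.mul_le_mul_right _ h3
      have := Nat.le_of_mul_le_mul_left h5 (by omega)
      omega
    have := Set.eq_of_subset_of_ncard_le hsub h4 (Set.toFinite _)
    have hy' : y ∈ {g : G | ∀ a : Ω, g • a ≠ a} := hy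
    rw [← this] at hy'
    exact hy'
  have hex : ∀ q : ℕ, q.Prime → q ∣ n → ∃ x : G, orderOf x = q ∧ ∀ a : Ω, x • a ≠ a := by
    intro q hq hqn
    have := Fact.mk hq
    obtain ⟨x, hx⟩ := exists_prime_orderOf_dvd_card' (G := G) q (hG' ▸ hqn.mul_right _)
    refine ⟨x, hx, fun a ha => hq.one_lt.ne' ?_⟩
    exact Nat.eq_one_of_dvd_coprimes hcop hqn (hx ▸ hfix x a ha)
  obtain ⟨p, hp, hpn⟩ := Nat.exists_prime_and_dvd (show n ≠ 1 by omega)
  obtain ⟨x, hxp, hx⟩ := hex p hp hpn
  have hord : ∀ y : G, (∀ a : Ω, y • a ≠ a) → orderOf y = p := by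
    intro y hy
    obtain ⟨c, rfl⟩ := isConj_iff.mp (hconj x y hx hy)
    rw [← hxp]
    exact (MulAut.conj c).orderOf_eq x
  have hpow : n = p ^ n.primeFactorsList.length :=
    Nat.eq_prime_pow_of_unique_prime_dvd (by omega) fun {q} hq hqn => by
      obtain ⟨y, hyq, hy⟩ := hex q hq hqn
      rw [← hyq, hord y hy]
  refine ⟨p, n.primeFactorsList.length, hp, ?_, hpow, fun _ P => ?_⟩
  · rcases Nat.eq_zero_or_pos n.primeFactorsList.length with h | h
    · rw [h, pow_zero] at hpow; omega
    · exact h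
  have hPc : Nat.card (P : Subgroup G) = n := by
    rw [P.card_eq_multiplicity, hG', Nat.factorization_mul (by omega) (by omega)]
    have h1 : (n - 1).factorization p = 0 :=
      Nat.factorization_eq_zero_of_not_dvd fun h =>
        hp.one_lt.ne' (Nat.eq_one_of_dvd_coprimes hcop hpn h)
    rw [Finsupp.add_apply, h1, add_zero]
    conv_rhs => rw [hpow]
    congr 1
    conv_lhs => rw [hpow]
    simp [hp.factorization_pow]
  have hPf : ∀ g ∈ (P : Subgroup G), ∀ a : Ω, g • a = a → g = 1 := by
    intro g hg a ha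
    have h1 := hfix g a ha
    have h3 := (P : Subgroup G).orderOf_dvd_natCard hg
    rw [hPc] at h3
    exact orderOf_eq_one_iff.mp (Nat.eq_one_of_dvd_coprimes hcop h3 h1)
  have hmem : ∀ g : G, g ∈ (P : Subgroup G) ↔ g = 1 ∨ ∀ a : Ω, g • a ≠ a := by
    have hsub : ((P : Subgroup G) : Set G) ⊆ insert 1 {g : G | ∀ a : Ω, g • a ≠ a} := by
      intro g hg
      by_cases h1 : g = 1
      · exact Or.inl h1
      · exact Or.inr fun a ha => h1 (hPf g hg a ha)
    have := Set.eq_of_subset_of_ncard_le hsub (by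
      rw [← Nat.card_coe_set_eq (s := ((P : Subgroup G) : Set G))]
      refine (Set.ncard_insert_le _ _).trans ?_
      rw [hF]
      exact hPc.ge) (Set.toFinite _)
    intro g
    change g ∈ ((P : Subgroup G) : Set G) ↔ _
    rw [this]
    rfl
  have hnormal : (P : Subgroup G).Normal := ⟨fun g hg c => by
    rw [hmem] at hg ⊢
    rcases hg with rfl | hg
    · left; simp
    · right
      intro a ha
      apply hg (c⁻¹ • a)
      rw [mul_smul, mul_smul, smul_eq_iff_eq_inv_smul] at ha
      exact ha⟩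
  have hstab : ∀ a : Ω, stabilizer (P : Subgroup G) a = ⊥ := fun a => by
    rw [eq_bot_iff]
    intro g hg
    exact Subtype.ext (hPf g g.2 a hg)
  refine ⟨hnormal, ?_, ?_, ?_, hstab, hmem, hPc⟩
  · have hPnt : Nontrivial (P : Subgroup G) := Finite.one_lt_card_iff_nontrivial.mp (by omega)
    have := P.isPGroup'.center_nontrivial
    obtain ⟨z, hz⟩ := exists_ne (1 : Subgroup.center (P : Subgroup G))
    have hz1 : ((z : (P : Subgroup G)) : G) ≠ 1 := fun h => hz (Subtype.ext (Subtype.ext h))
    have hzf := ((hmem _).mp (z : (P : Subgroup G)).2).resolve_left hz1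
    refine ⟨⟨fun u v => ?_⟩⟩
    rcases (hmem _).mp u.2 with h | h
    · have : u = 1 := Subtype.ext h
      simp [this]
    · obtain ⟨c, hc⟩ := isConj_iff.mp (hconj _ _ hzf h)
      have hv : c⁻¹ * v * c⁻¹⁻¹ ∈ (P : Subgroup G) := hnormal.conj_mem _ v.2 c⁻¹
      have := congrArg Subtype.val (Subgroup.mem_center_iff.mp z.2 ⟨_, hv⟩)
      simp only [Subgroup.coe_mul, inv_inv] at this
      apply Subtype.ext
      simp only [Subgroup.coe_mul, ← hc]
      calc c * z * c⁻¹ * v = c * (z * (c⁻¹ * v * c)) * c⁻¹ := by group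
        _ = c * ((c⁻¹ * v * c) * z) * c⁻¹ := by rw [this]
        _ = _ := by group
  · intro g hg
    rcases (hmem g).mp hg with rfl | h
    · simp
    · rw [← hord g h, pow_orderOf_eq_one]
  · rw [isPretransitive_iff_orbit_eq_univ a₀]
    apply Set.eq_of_subset_of_ncard_le (Set.subset_univ _) _ (Set.toFinite _)
    rw [← index_stabilizer, hstab, Subgroup.index_bot, hPc, Set.ncard_univ]

end

end CfsgH8
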