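import Mathlib

/-! Groups generated by transvection subgroups: components. -/

set_option autoImplicit false
set_option linter.unusedSectionVars false

namespace CfsgH8.McL

open Module

variable {F V : Type*} [Field F] [AddCommGroup V] [Module F V]

/-- The transvection group with centre `x` and axis `α` lies in `H`. -/
structure Sg (H : Subgroup (V ≃ₗ[F] V)) (x : V) (α : V →ₗ[F] F) : Prop where
  hx : x ≠ 0
  hα : α ≠ 0
  e : α x = 0
  mem : ∀ c : F, ∃ g ∈ H, ∀ v, g v = v + (c * α v) • x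

/-- Invariant subspaces. -/
def Inv (H : Subgroup (V ≃ₗ[F] V)) (X : Submodule F V) : Prop := ∀ g ∈ H, ∀ v ∈ X, g v ∈ X

/-- The standing hypotheses. -/
structure Hyp (H : Subgroup (V ≃ₗ[F] V)) : Prop where
  two : (2 : F) ≠ 0
  gen : ∀ K : Subgroup (V ≃ₗ[F] V), (∀ x α g, Sg H x α → (∀ v, g v = v + α v • x) → g ∈ K) → H ≤ K
  unip : ∀ X R : Submodule F V, Inv H X → Inv H R → ∀ g ∈ H, (∀ v, g v - v ∈ X) →
    (∀ v ∈ X, g v - v ∈ R) → (∀ v ∈ R, g v = v) → g = 1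

variable {H : Subgroup (V ≃ₗ[F] V)} {x y z w : V} {α β γ δ : V →ₗ[F] F} {X : Submodule F V}

theorem Sg.smul_left (h : Sg H x α) {c : F} (hc : c ≠ 0) : Sg H (c • x) α :=
  ⟨smul_ne_zero hc h.hx, h.hα, by simp [h.e], fun a => by
    obtain ⟨g, hg, e⟩ := h.mem (a * c)
    exact ⟨g, hg, fun v => by rw [e, smul_smul]; congr 2; ring⟩⟩

theorem Sg.smul_right (h : Sg H x α) {c : F} (hc : c ≠ 0) : Sg H x (c • α) :=
  ⟨h.hx, smul_ne_zero hc h.hα, by simp [h.e], fun a => by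
    obtain ⟨g, hg, e⟩ := h.mem (a * c)
    exact ⟨g, hg, fun v => by rw [e]; simp [mul_assoc]⟩⟩

theorem Sg.map (h : Sg H x α) {g : V ≃ₗ[F] V} (hg : g ∈ H) : Sg H (g x) (α ∘ₗ g.symm.toLinearMap) := by
  refine ⟨by simpa using h.hx, fun e => h.hα ?_, by simp [h.e], fun c => ?_⟩
  · ext v; simpa using LinearMap.congr_fun e (g v)
  · obtain ⟨t, ht, e⟩ := h.mem c
    exact ⟨g * t * g⁻¹, H.mul_mem (H.mul_mem hg ht) (H.inv_mem hg), fun v => by
      simp [LinearEquiv.mul_apply, e]⟩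

theorem tv_symm {g : V ≃ₗ[F] V} {c : F} (h : α x = 0) (e : ∀ v, g v = v + (c * α v) • x) (v : V) :
    g.symm v = v - (c * α v) • x := by
  rw [LinearEquiv.symm_apply_eq, e]; simp [h]

theorem Sg.conj (h : Sg H x α) (h' : Sg H y β) (c : F) :
    Sg H (y + (c * α y) • x) (β - (c * β x) • α) := by
  obtain ⟨g, hg, e⟩ := h.mem c
  have := h'.map hg
  rw [e] at this
  convert this using 1
  ext v
  simp [tv_symm h.e e]; ring

theorem Sg.add_left (h : Sg H x α) (h' : Sg H y α) (h0 : x + y ≠ 0) : Sg H (x + y) α := by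
  refine ⟨h0, h.hα, by simp [h.e, h'.e], fun c => ?_⟩
  obtain ⟨g, hg, e⟩ := h.mem c
  obtain ⟨g', hg', e'⟩ := h'.mem c
  refine ⟨g * g', H.mul_mem hg hg', fun v => ?_⟩
  rw [LinearEquiv.mul_apply, e', e]
  simp only [map_add, map_smul, h'.e]
  module

theorem Sg.add_right (h : Sg H x α) (h' : Sg H x β) (h0 : α + β ≠ 0) : Sg H x (α + β) := by
  refine ⟨h.hx, h0, by simp [h.e, h'.e], fun c => ?_⟩
  obtain ⟨g, hg, e⟩ := h.mem c
  obtain ⟨g', hg', e'⟩ := h'.mem c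
  refine ⟨g * g', H.mul_mem hg hg', fun v => ?_⟩
  rw [LinearEquiv.mul_apply, e', e]
  simp only [map_add, map_smul, h.e, LinearMap.add_apply]
  module

theorem Sg.r1 (h : Sg H x α) (h' : Sg H y β) (h1 : α y ≠ 0) (h2 : β x = 0) : Sg H x β := by
  have a := h.conj h' 1
  rw [h2, mul_zero, zero_smul, sub_zero, one_mul] at a
  have b := a.add_left (h'.smul_left (neg_ne_zero.2 one_ne_zero)) (by
    simpa [add_assoc, add_comm, add_left_comm, h1] using h.hx)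
  have := b.smul_left (inv_ne_zero h1)
  convert this using 1
  match_scalars <;> field_simp <;> ring

theorem Sg.mem1 (h : Sg H x α) : ∃ g ∈ H, ∀ v, g v = v + α v • x := by
  simpa using h.mem 1

theorem Sg.mem_of (h : Sg H x α) {g : V ≃ₗ[F] V} (e : ∀ v, g v = v + α v • x) : g ∈ H := by
  obtain ⟨g', hg, e'⟩ := h.mem1
  rwa [show g = g' from LinearEquiv.ext fun v => by rw [e, e']]

theorem Inv.mem (hX : Inv H X) (h : Sg H x α) {v : V} (hv : v ∈ X) (h1 : α v ≠ 0) : x ∈ X := by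
  obtain ⟨g, hg, e⟩ := h.mem1
  have := X.sub_mem (hX g hg v hv) hv
  rw [e, add_sub_cancel_left] at this
  exact (X.smul_mem_iff h1).1 this

theorem Hyp.inv_of (hH : Hyp H) (h : ∀ x α, Sg H x α → ∀ v ∈ X, α v ≠ 0 → x ∈ X) : Inv H X := by
  let K : Subgroup (V ≃ₗ[F] V) :=
    { carrier := {g | ∀ v, g v ∈ X ↔ v ∈ X}
      one_mem' := fun v => Iff.rfl
      mul_mem' := fun {a b} ha hb v => by rw [LinearEquiv.mul_apply, ha, hb]
      inv_mem' := fun {a} ha v => by rw [← ha]; simp }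
  have : H ≤ K := hH.gen K fun x α g hs e v => by
    rw [e]
    by_cases h0 : α v = 0
    · simp [h0]
    constructor
    · intro hv
      have hx := h x α hs _ hv (by simpa [hs.e] using h0)
      simpa using X.sub_mem hv (X.smul_mem (α v) hx)
    · exact fun hv => X.add_mem hv (X.smul_mem _ (h x α hs v hv h0))
  exact fun g hg v hv => (this hg v).2 hv

theorem inv_bot : Inv H (⊥ : Submodule F V) := fun g _ v hv => by
  rw [Submodule.mem_bot] at hv ⊢; simp [hv]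

theorem Hyp.not_both (hH : Hyp H) (hX : Inv H X) (h : Sg H x α) (hx : x ∈ X) : ∃ v ∈ X, α v ≠ 0 := by
  by_contra hc
  push Not at hc
  obtain ⟨g, hg, e⟩ := h.mem1
  have := hH.unip X ⊥ hX inv_bot g hg (fun v => by rw [e]; simpa using X.smul_mem _ hx)
    (fun v hv => by simp [e, hc v hv]) (fun v hv => by rw [Submodule.mem_bot] at hv; simp [hv])
  apply h.hα
  ext v
  have e := e v
  rw [this] at e
  simpa [h.hx] using e

theorem Hyp.ort (hH : Hyp H) (hX : Inv H X) (h : Sg H x α) (h' : Sg H y β) (hx : x ∈ X) (hy : y ∉ X) :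
    β x = 0 ∧ α y = 0 := by
  have h1 : ∀ v ∈ X, β v = 0 := fun v hv => by_contra fun e => hy (hX.mem h' hv e)
  refine ⟨h1 x hx, by_contra fun e => ?_⟩
  obtain ⟨v, hv, e'⟩ := hH.not_both hX (h.r1 h' e (h1 x hx)) hx
  exact e' (h1 v hv)

theorem ex_of_span {D : Set V} {v : V} (hv : v ∈ Submodule.span F D) (h : α v ≠ 0) : ∃ w ∈ D, α w ≠ 0 := by
  by_contra hc
  push Not at hc
  exact h ((Submodule.span_le (p := LinearMap.ker α)).2 hc hv)

variable (H) in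
/-- The invariant subspace generated by a vector. -/
def O (x : V) : Submodule F V := sInf {X | Inv H X ∧ x ∈ X}

theorem O_inv (x : V) : Inv H (O H x) := fun g hg v hv =>
  Submodule.mem_sInf.2 fun X hX => hX.1 g hg v (Submodule.mem_sInf.1 hv X hX)

theorem mem_O (x : V) : x ∈ O H x := Submodule.mem_sInf.2 fun _ hX => hX.2

theorem O_le (hX : Inv H X) (hx : x ∈ X) : O H x ≤ X := sInf_le ⟨hX, hx⟩

theorem Hyp.O_symm (hH : Hyp H) (h : Sg H x α) (h' : Sg H y β) (hy : y ∈ O H x) : x ∈ O H y := by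
  by_contra hx
  let D : Set V := {z | ∃ γ, Sg H z γ ∧ z ∉ O H y}
  have key : ∀ z γ, Sg H z γ → ∀ v ∈ Submodule.span F D, γ v ≠ 0 → z ∉ O H y := by
    intro z γ hz v hv e hzy
    obtain ⟨w, ⟨δ, hw, hw'⟩, e'⟩ := ex_of_span hv e
    exact e' (hH.ort (O_inv y) hz hw hzy hw').2
  have hi : Inv H (Submodule.span F D) := hH.inv_of fun z γ hz v hv e =>
    Submodule.subset_span ⟨γ, hz, key z γ hz v hv e⟩
  obtain ⟨v, hv, e⟩ := hH.not_both hi h' (O_le hi (Submodule.subset_span ⟨α, h, hx⟩) hy)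
  exact key y β h' v hv e (mem_O y)

variable (H) in
/-- Components. -/
def Cmp (X : Submodule F V) : Prop := X = ⊥ ∨ ∃ x α, Sg H x α ∧ X = O H x

theorem Cmp.inv (h : Cmp H X) : Inv H X := by
  rcases h with rfl | ⟨x, α, -, rfl⟩
  exacts [inv_bot, O_inv x]

theorem Cmp.eq (h : Cmp H X) (hH : Hyp H) (hy : Sg H y β) (hyX : y ∈ X) : X = O H y := by
  rcases h with rfl | ⟨x, α, hx, rfl⟩
  · exact absurd hyX hy.hx
  · exact le_antisymm (O_le (O_inv y) (hH.O_symm hx hy hyX)) (O_le (O_inv x) hyX)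

theorem Cmp.le (h : Cmp H X) (hH : Hyp H) (hy : Sg H y β) (hyX : y ∈ X) {Y : Submodule F V}
    (hY : Inv H Y) (hyY : y ∈ Y) : X ≤ Y := h.eq hH hy hyX ▸ O_le hY hyY

theorem Cmp.le_span (h : Cmp H X) (hH : Hyp H) (hy : Sg H y β) (hyX : y ∈ X) {D : Set V} (hD : y ∈ D)
    (hcl : ∀ z γ w, Sg H z γ → w ∈ D → γ w ≠ 0 → z ∈ D ∨ ∃ c : F, c ≠ 0 ∧ w + c • z ∈ D) :
    X ≤ Submodule.span F D := by
  refine h.le hH hy hyX (hH.inv_of fun z γ hz v hv e => ?_) (Submodule.subset_span hD)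
  obtain ⟨w, hw, e'⟩ := ex_of_span hv e
  rcases hcl z γ w hz hw e' with h1 | ⟨c, hc, h1⟩
  · exact Submodule.subset_span h1
  · have := Submodule.sub_mem _ (Submodule.subset_span h1) (Submodule.subset_span (R := F) hw)
    rw [add_sub_cancel_left] at this
    exact (Submodule.smul_mem_iff _ hc).1 this

theorem Cmp.ex (h : Cmp H X) (hH : Hyp H) (hy : Sg H y β) (hyX : y ∈ X) {D : Set V} (hD : y ∈ D)
    (hcl : ∀ z γ w, Sg H z γ → w ∈ D → γ w ≠ 0 → z ∈ D ∨ ∃ c : F, c ≠ 0 ∧ w + c • z ∈ D)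
    (hz : Sg H z γ) (hzX : z ∈ X) : ∃ w ∈ D, γ w ≠ 0 := by
  obtain ⟨v, hv, e⟩ := hH.not_both h.inv hz hzX
  exact ex_of_span (h.le_span hH hy hyX hD hcl hv) e

theorem Cmp.ex_opp (h : Cmp H X) (hH : Hyp H) (hx : Sg H x α) (hxX : x ∈ X) :
    ∃ w ε, Sg H w ε ∧ α w ≠ 0 ∧ ε x ≠ 0 := by
  obtain ⟨w, hw, e⟩ := h.ex hH hx hxX (D := {w | w = x ∨ ∃ ε, Sg H w ε ∧ ε x ≠ 0}) (Or.inl rfl)
    (fun z γ w hz hw e => by
      by_cases h0 : γ x = 0
      · rcases hw with rfl | ⟨ε, hw, e'⟩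
        · exact absurd h0 e
        · exact Or.inr ⟨1 * γ w, by simpa using e, Or.inr ⟨_, hz.conj hw 1, by simpa [h0] using e'⟩⟩
      · exact Or.inl (Or.inr ⟨γ, hz, h0⟩)) hx hxX
  rcases hw with rfl | ⟨ε, hw, e'⟩
  · exact absurd hx.e e
  · exact ⟨w, ε, hw, e, e'⟩

theorem Hyp.ex_c (hH : Hyp H) {a b : F} (ha : a ≠ 0) : ∃ c : F, c ≠ 0 ∧ a + c * b ≠ 0 := by
  by_cases e : a + 1 * b = 0
  · refine ⟨-1, by simp, fun e' => mul_ne_zero hH.two ha ?_⟩
    linear_combination e + e'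
  · exact ⟨1, one_ne_zero, e⟩

theorem Cmp.ex_opp2 (h : Cmp H X) (hH : Hyp H) (hx : Sg H x α) (hxX : x ∈ X) (hz : Sg H z γ)
    (hzX : z ∈ X) : ∃ w ε, Sg H w ε ∧ α w ≠ 0 ∧ ε x ≠ 0 ∧ γ w ≠ 0 := by
  obtain ⟨y, β, hy, e1, e2⟩ := h.ex_opp hH hx hxX
  obtain ⟨w, ⟨ε, hw, e3, e4⟩, e⟩ := h.ex hH hy (h.inv.mem hy hxX e2)
    (D := {w | ∃ ε, Sg H w ε ∧ α w ≠ 0 ∧ ε x ≠ 0}) ⟨β, hy, e1, e2⟩
    (fun z γ w hz ⟨ε, hw, a1, a2⟩ e => by
      by_cases h0 : γ x = 0
      · obtain ⟨c, hc, hc'⟩ := hH.ex_c (b := γ w * α z) a1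
        exact Or.inr ⟨c * γ w, mul_ne_zero hc e, _, hz.conj hw c, by simpa [mul_assoc] using hc',
          by simpa [h0] using a2⟩
      by_cases h1 : α z = 0
      · obtain ⟨c, hc, hc'⟩ := hH.ex_c (b := -(ε z * γ x)) a2
        exact Or.inr ⟨c * γ w, mul_ne_zero hc e, _, hz.conj hw c, by simpa [h1] using a1,
          by simpa [mul_assoc, sub_eq_add_neg] using hc'⟩
      exact Or.inl ⟨γ, hz, h1, h0⟩) hz hzX
  exact ⟨w, ε, hw, e3, e4, e⟩

variable (H) in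
/-- The span of the axes of a component. -/
def Ax (X : Submodule F V) : Submodule F (V →ₗ[F] F) := Submodule.span F {α | ∃ x ∈ X, Sg H x α}

variable (H) in
/-- All points of the component are centres and all of the span of the axes are axes. -/
def Good (X : Submodule F V) : Prop :=
  (∀ x ∈ X, x ≠ 0 → ∃ α, Sg H x α) ∧ ∀ α ∈ Ax H X, α ≠ 0 → ∃ x ∈ X, Sg H x α

end CfsgH8.McL
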