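import Cfsg.Agent.H8.McL

/-! Groups generated by transvection subgroups: the linear and the symplectic case. -/

set_option autoImplicit false
set_option linter.unusedSectionVars false

namespace CfsgH8.McL

open Module

variable {F V : Type*} [Field F] [AddCommGroup V] [Module F V]
variable {H : Subgroup (V ≃ₗ[F] V)} {x y z w : V} {α β γ δ : V →ₗ[F] F} {X : Submodule F V}

theorem two_ax (h : Sg H x α) (h' : Sg H x β) (h1 : α y ≠ 0) (h2 : β y = 0) (v : V) :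
    ∃ δ, Sg H x δ ∧ δ v = 0 := by
  by_cases e : β v = 0
  · exact ⟨β, h', e⟩
  by_cases e' : α v = 0
  · exact ⟨α, h, e'⟩
  refine ⟨_, h.add_right (h'.smul_right (c := -(α v / β v)) (by simp [e, e'])) fun e2 => h1 ?_,
    by simp [e]⟩
  simpa [h2] using LinearMap.congr_fun e2 y

theorem two_ce (h : Sg H x α) (h' : Sg H y α) (h1 : β x ≠ 0) (h2 : β y = 0) (f : V →ₗ[F] F) :
    ∃ z, Sg H z α ∧ f z = 0 := by
  by_cases e : f y = 0
  · exact ⟨y, h', e⟩
  by_cases e' : f x = 0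
  · exact ⟨x, h, e'⟩
  refine ⟨_, h.add_left (h'.smul_left (c := -(f x / f y)) (by simp [e, e'])) fun e2 => h1 ?_,
    by simp [e]⟩
  simpa [h2] using congrArg β e2

section L

variable [Finite (V →ₗ[F] F)] [Finite V]

variable (H) in
/-- The number of axes of a point. -/
noncomputable def na (x : V) : ℕ := {δ | Sg H x δ}.ncard

theorem na_le {g : V ≃ₗ[F] V} (hg : g ∈ H) {c : F} (hc : c ≠ 0) (e : g x = c • y) : na H x ≤ na H y := by
  refine Set.ncard_le_ncard_of_injOn (fun δ => δ ∘ₗ g.symm.toLinearMap) (fun δ hδ => ?_)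
    (fun a _ b _ e => ?_) (Set.toFinite _)
  · have := (Sg.map hδ hg).smul_left (inv_ne_zero hc)
    rwa [e, inv_smul_smul₀ hc] at this
  · ext v; simpa using LinearMap.congr_fun e (g v)

theorem na_lt (h : ∀ δ, Sg H x δ → Sg H y δ) (h1 : Sg H y γ) (h2 : γ x ≠ 0) : na H x < na H y :=
  Set.ncard_lt_ncard ⟨h, fun e => h2 (Sg.e (e h1))⟩ (Set.toFinite _)

theorem na_opp (hz : Sg H z γ) (hw : Sg H w δ) (h1 : γ w ≠ 0) (h2 : δ z ≠ 0) : na H w ≤ na H z := by
  obtain ⟨g, hg, e⟩ := hz.mem1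
  obtain ⟨g', hg', e'⟩ := hw.mem (-(γ w * δ z)⁻¹)
  refine na_le (H.mul_mem hg' hg) h1 ?_
  rw [LinearEquiv.mul_apply, e, e']
  simp only [map_add, map_smul, hw.e, smul_eq_mul]
  match_scalars <;> field_simp <;> ring

theorem Cmp.na_eq (h : Cmp H X) (hH : Hyp H) (hx : Sg H x α) (hxX : x ∈ X) (hz : Sg H z γ) (hzX : z ∈ X) :
    na H x ≤ na H z := by
  obtain ⟨y, ⟨hyX, β, hy⟩, hm⟩ := Set.exists_max_image {y | y ∈ X ∧ ∃ β, Sg H y β} (na H)
    (Set.toFinite _) ⟨x, hxX, α, hx⟩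
  obtain ⟨w, ⟨⟨hwX, ε, hw⟩, e1⟩, e2⟩ := h.ex hH hy hyX
    (D := {w | (w ∈ X ∧ ∃ β, Sg H w β) ∧ na H y ≤ na H w}) ⟨⟨hyX, β, hy⟩, le_rfl⟩
    (fun z γ w hz ⟨⟨hwX, ε, hw⟩, a⟩ e => by
      obtain ⟨g, hg, e'⟩ := hz.mem1
      refine Or.inr ⟨γ w, e, ⟨e' w ▸ h.inv g hg w hwX, _, e' w ▸ hw.map hg⟩, a.trans ?_⟩
      exact na_le hg one_ne_zero (by rw [e', one_smul])) hz hzX
  refine (hm x ⟨hxX, α, hx⟩).trans (e1.trans ?_)
  by_cases e3 : ∃ δ, Sg H w δ ∧ δ z ≠ 0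
  · obtain ⟨δ, hw, e3⟩ := e3
    exact na_opp hz hw e2 e3
  · push Not at e3
    exact (na_lt (fun δ hw => hz.r1 hw e2 (e3 δ hw)) hz e2).le

variable (H) in
/-- The linear case. -/
def CaseL (X : Submodule F V) : Prop := ∃ x α y β, Sg H x α ∧ Sg H y β ∧ x ∈ X ∧ α y ≠ 0 ∧ β x = 0

theorem Cmp.L1 (h : Cmp H X) (hH : Hyp H) (hL : CaseL H X) (hz : Sg H z γ) (hzX : z ∈ X) (v : V) :
    ∃ δ, Sg H z δ ∧ δ v = 0 := by
  obtain ⟨x, α, y, β, hx, hy, hxX, e1, e2⟩ := hL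
  obtain ⟨w, hw, e⟩ := h.ex hH hx hxX (D := {w | ∀ v, ∃ δ, Sg H w δ ∧ δ v = 0})
    (two_ax hx (hx.r1 hy e1 e2) e1 hy.e)
    (fun z γ w hz hw e => by
      obtain ⟨g, hg, e'⟩ := hz.mem1
      refine Or.inr ⟨γ w, e, fun v => ?_⟩
      obtain ⟨δ, h1, h2⟩ := hw (g.symm v)
      exact ⟨_, e' w ▸ h1.map hg, h2⟩) hz hzX
  obtain ⟨ε, h1, h2⟩ := hw z
  exact two_ax hz (hz.r1 h1 e h2) e h1.e v

theorem Cmp.L2 (h : Cmp H X) (hH : Hyp H) (hL : CaseL H X) (hz : Sg H z γ) (hzX : z ∈ X)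
    (f : V →ₗ[F] F) : ∃ w, Sg H w γ ∧ f w = 0 := by
  obtain ⟨x, α, y, β, hx, hy, hxX, e1, e2⟩ := hL
  let D : Set (V →ₗ[F] F) := {ε | ∀ f : V →ₗ[F] F, ∃ w, Sg H w ε ∧ f w = 0}
  have hβ : β ∈ D := two_ce hy (hx.r1 hy e1 e2) e1 hx.e
  have hi : Inv H (⨅ ε ∈ D, LinearMap.ker ε) := fun g hg v hv => by
    simp only [Submodule.mem_iInf, LinearMap.mem_ker] at hv ⊢
    intro ε hε
    refine hv (ε ∘ₗ g.toLinearMap) fun f => ?_
    obtain ⟨w, h1, h2⟩ := hε (f ∘ₗ g.symm.toLinearMap)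
    exact ⟨_, h1.map (H.inv_mem hg), h2⟩
  obtain ⟨ε, hε, e⟩ : ∃ ε ∈ D, ε z ≠ 0 := by
    by_contra hc
    push Not at hc
    have := h.le hH hz hzX hi (by simpa only [Submodule.mem_iInf, LinearMap.mem_ker] using hc)
    obtain ⟨v, hv, e⟩ := hH.not_both h.inv (hx.r1 hy e1 e2) hxX
    have := this hv
    simp only [Submodule.mem_iInf, LinearMap.mem_ker] at this
    exact e (this β hβ)
  obtain ⟨w, h1, h2⟩ := hε γ
  exact two_ce hz (h1.r1 hz e h2) e h1.e f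

theorem Cmp.L3 (h : Cmp H X) (hH : Hyp H) (hL : CaseL H X) (hx : Sg H x α) (hxX : x ∈ X)
    (hz : Sg H z γ) (hzX : z ∈ X) (e : γ x = 0) : Sg H x γ := by
  by_contra hc
  have h0 : ∀ δ u, Sg H x δ → Sg H u γ → δ u = 0 := fun δ u h1 h2 =>
    by_contra fun e' => hc (h1.r1 h2 e' e)
  obtain ⟨w, ε, hw, -, e2, e3⟩ := h.ex_opp2 hH hx hxX hz hzX
  obtain ⟨u, hu, e4⟩ := h.L2 hH hL hz hzX ε
  have h1 : Sg H u ε := hu.r1 hw e3 e4
  exact (na_lt (fun δ hδ => h1.r1 hδ e2 (h0 δ u hδ hu)) h1 e2).not_ge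
    (h.na_eq hH h1 (h.inv.mem h1 hxX e2) hx hxX)

theorem Cmp.L4 (h : Cmp H X) (hH : Hyp H) (hL : CaseL H X) : Good H X := by
  constructor
  · obtain ⟨x, α, -, -, hx, -, hxX, -⟩ := id hL
    intro v hv
    have := h.le_span hH hx hxX (D := {w | w ∈ X ∧ ∃ ε, Sg H w ε}) ⟨hxX, α, hx⟩
      (fun z γ w hz hw e => Or.inl ⟨h.inv.mem hz hw.1 e, γ, hz⟩) hv
    clear hv
    have key : v ∈ X ∧ (v ≠ 0 → ∃ α, Sg H v α) := by
      induction this using Submodule.span_induction with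
      | mem v hv => exact ⟨hv.1, fun _ => hv.2⟩
      | zero => simp
      | add a b _ _ ha hb =>
        refine ⟨X.add_mem ha.1 hb.1, fun h0 => ?_⟩
        by_cases a0 : a = 0
        · rw [a0, zero_add] at h0 ⊢; exact hb.2 h0
        by_cases b0 : b = 0
        · rw [b0, add_zero] at h0 ⊢; exact ha.2 h0
        obtain ⟨ε, h1⟩ := ha.2 a0
        obtain ⟨ε', h2⟩ := hb.2 b0
        obtain ⟨δ, h3, h4⟩ := h.L1 hH hL h1 ha.1 b
        exact ⟨δ, h3.add_left (h.L3 hH hL h2 hb.1 h3 ha.1 h4) h0⟩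
      | smul c a _ ha =>
        refine ⟨X.smul_mem c ha.1, fun h0 => ?_⟩
        obtain ⟨ε, h1⟩ := ha.2 (right_ne_zero_of_smul h0)
        exact ⟨ε, h1.smul_left (left_ne_zero_of_smul h0)⟩
    exact key.2
  · intro α hα
    induction hα using Submodule.span_induction with
    | mem v hv => exact fun _ => hv
    | zero => simp
    | add a b _ _ ha hb =>
      intro h0
      by_cases a0 : a = 0
      · rw [a0, zero_add] at h0 ⊢; exact hb h0
      by_cases b0 : b = 0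
      · rw [b0, add_zero] at h0 ⊢; exact ha h0
      obtain ⟨u, hu, h1⟩ := ha a0
      obtain ⟨u', hu', h2⟩ := hb b0
      obtain ⟨w, h3, h4⟩ := h.L2 hH hL h1 hu b
      have hw : w ∈ X := by
        obtain ⟨v, hv, e⟩ := hH.not_both h.inv h1 hu
        exact h.inv.mem h3 hv e
      exact ⟨w, hw, h3.add_right (h.L3 hH hL h3 hw h2 hu' h4) h0⟩
    | smul c a _ ha =>
      intro h0
      obtain ⟨u, hu, h1⟩ := ha (right_ne_zero_of_smul h0)
      exact ⟨u, hu, h1.smul_right (left_ne_zero_of_smul h0)⟩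

theorem Cmp.L5 (h : Cmp H X) (hH : Hyp H) (hL : CaseL H X) (hx : x ∈ X) (x0 : x ≠ 0) (hα : α ∈ Ax H X)
    (α0 : α ≠ 0) (e : α x = 0) : Sg H x α := by
  obtain ⟨β, h1⟩ := (h.L4 hH hL).1 x hx x0
  obtain ⟨z, hz, h2⟩ := (h.L4 hH hL).2 α hα α0
  exact h.L3 hH hL h1 hx h2 hz e

end L

section S

theorem Cmp.S (h : Cmp H X) (hH : Hyp H)
    (hS : ∀ x α y β, Sg H x α → Sg H y β → x ∈ X → α y ≠ 0 → β x ≠ 0) :
    ∃ Z : Submodule F (V × (V →ₗ[F] F)), (∀ p ∈ Z, ∀ q ∈ Z, p.2 q.1 + q.2 p.1 = 0) ∧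
      (∀ p ∈ Z, p ≠ 0 → Sg H p.1 p.2) ∧ (∀ p ∈ Z, p.1 ∈ X) ∧
      (∀ z γ, Sg H z γ → z ∈ X → ∃ c : F, c ≠ 0 ∧ (z, c • γ) ∈ Z) := by
  have hS' : ∀ x α y β, Sg H x α → Sg H y β → x ∈ X → β x ≠ 0 → α y ≠ 0 := fun x α y β h1 h2 h3 h4 =>
    hS y β x α h2 h1 (h.inv.mem h2 h3 h4) h4
  rcases id h with rfl | ⟨x0, α0, h0, eX⟩
  · exact ⟨⊥, by simp, by simp, by simp, fun z γ hz hzX => absurd hzX hz.hx⟩
  have x0X : x0 ∈ X := eX ▸ mem_O x0
  have conj' : ∀ p q : V × (V →ₗ[F] F), Sg H p.1 p.2 → Sg H q.1 q.2 → p.2 q.1 + q.2 p.1 = 0 → p.2 q.1 ≠ 0 →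
      ∀ c : F, Sg H (q + c • p).1 (q + c • p).2 := by
    intro p q hp hq e e' c
    have := hp.conj hq (c / p.2 q.1)
    rw [div_mul_cancel₀ _ e', show q.2 p.1 = -p.2 q.1 by linear_combination e, mul_neg,
      div_mul_cancel₀ _ e'] at this
    rwa [show (q + c • p).2 = q.2 - (-c) • p.2 by ext u; simp]
  let G : Set (V × (V →ₗ[F] F)) := {q | Sg H q.1 q.2 ∧ q.2 x0 ≠ 0 ∧ α0 q.1 + q.2 x0 = 0}
  have GX : ∀ q ∈ G, q.1 ∈ X := fun q hq => h.inv.mem hq.1 x0X hq.2.1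
  have iso1 : ∀ p ∈ G, ∀ q ∈ G, p.2 q.1 + q.2 p.1 = 0 := by
    intro p hp q hq
    have a := conj' (x0, α0) p h0 hp.1 hp.2.2 (hS' _ _ _ _ h0 hp.1 x0X hp.2.1) (-(q.2 p.1 / q.2 x0))
    have b : q.2 (p + -(q.2 p.1 / q.2 x0) • (x0, α0)).1 = 0 := by simp [hq.2.1]
    have c : (p + -(q.2 p.1 / q.2 x0) • (x0, α0)).2 q.1 = 0 := by
      by_contra e
      exact hS _ _ _ _ a hq.1 (X.add_mem (GX p hp) (X.smul_mem _ x0X)) e b
    have e := hq.2.2
    have e' := hq.2.1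
    simp only [Prod.snd_add, Prod.smul_snd, LinearMap.add_apply, LinearMap.smul_apply, smul_eq_mul] at c
    rw [show α0 q.1 = -q.2 x0 by linear_combination e] at c
    field_simp at c
    linear_combination c
  have isoZ : ∀ p ∈ Submodule.span F G, ∀ q ∈ Submodule.span F G, p.2 q.1 + q.2 p.1 = 0 := by
    intro p hp q hq
    induction hp, hq using Submodule.span_induction₂ with
    | mem_mem p q hp hq => exact iso1 p hp q hq
    | zero_left => simp
    | zero_right => simp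
    | add_left a b c _ _ _ h1 h2 => simp only [Prod.fst_add, Prod.snd_add, map_add, LinearMap.add_apply]; linear_combination h1 + h2
    | add_right a b c _ _ _ h1 h2 => simp only [Prod.fst_add, Prod.snd_add, map_add, LinearMap.add_apply]; linear_combination h1 + h2
    | smul_left r a b _ _ h1 => simp only [Prod.smul_fst, Prod.smul_snd, map_smul, LinearMap.smul_apply, smul_eq_mul]; linear_combination r * h1
    | smul_right r a b _ _ h1 => simp only [Prod.smul_fst, Prod.smul_snd, map_smul, LinearMap.smul_apply, smul_eq_mul]; linear_combination r * h1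
  have ZX : ∀ p ∈ Submodule.span F G, p.1 ∈ X := fun p hp =>
    (Submodule.span_le (p := X.comap (LinearMap.fst F _ _))).2 GX hp
  have n1 : ∀ z γ, Sg H z γ → γ x0 ≠ 0 → ∃ c : F, c ≠ 0 ∧ (z, c • γ) ∈ G := fun z γ hz e => by
    have e' := hS' _ _ _ _ h0 hz x0X e
    exact ⟨-(α0 z / γ x0), by simp [e, e'], hz.smul_right (by simp [e, e']), by simp [e, e'], by simp [e]⟩
  have n2 : ∀ z γ, Sg H z γ → γ x0 = 0 → ∀ q ∈ G, γ q.1 ≠ 0 →
      ∃ c : F, c ≠ 0 ∧ q + (z, c • γ) ∈ G := fun z γ hz e q hq e1 => by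
    have e2 := hS' _ _ _ _ hq.1 hz (GX q hq) e1
    have e3 : α0 z = 0 := by_contra fun e' => hS _ _ _ _ h0 hz x0X e' e
    have hc : -(q.2 z / γ q.1) ≠ 0 := by simp [e1, e2]
    have := conj' (z, -(q.2 z / γ q.1) • γ) q (hz.smul_right hc) hq.1 (by simp [e1]) (by simp [e1, e2]) 1
    rw [one_smul] at this
    exact ⟨_, hc, this, by simpa [e] using hq.2.1, by simpa [e, e3] using hq.2.2⟩
  have memZ : ∀ z γ, Sg H z γ → z ∈ X → ∃ c : F, c ≠ 0 ∧ (z, c • γ) ∈ Submodule.span F G := by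
    intro z γ hz hzX
    by_cases e : γ x0 = 0
    swap
    · obtain ⟨c, hc, h1⟩ := n1 z γ hz e
      exact ⟨c, hc, Submodule.subset_span h1⟩
    obtain ⟨y, β, hy, -, e2⟩ := h.ex_opp hH h0 x0X
    obtain ⟨c, -, hc⟩ := n1 y β hy e2
    obtain ⟨_, ⟨q, hq, rfl⟩, e1⟩ := h.ex hH hy (GX _ hc) (D := Prod.fst '' G) ⟨_, hc, rfl⟩
      (fun z γ w hz ⟨q, hq, e⟩ e1 => by
        subst e
        by_cases e : γ x0 = 0
        · obtain ⟨c, -, h1⟩ := n2 z γ hz e q hq e1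
          exact Or.inr ⟨1, one_ne_zero, _, h1, by simp⟩
        · obtain ⟨c, -, h1⟩ := n1 z γ hz e
          exact Or.inl ⟨_, h1, rfl⟩) hz hzX
    obtain ⟨c, hc, h1⟩ := n2 z γ hz e q hq e1
    refine ⟨c, hc, ?_⟩
    simpa using Submodule.sub_mem _ (Submodule.subset_span h1) (Submodule.subset_span (R := F) hq)
  refine ⟨Submodule.span F G, isoZ, ?_, ZX, memZ⟩
  generalize hZ : Submodule.span F G = Z at *
  let P : V × (V →ₗ[F] F) → Prop := fun p => p ∈ Z ∧ Sg H p.1 p.2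
  have sy : ∀ p q, P p → P q → p.2 q.1 = -q.2 p.1 := fun p q hp hq => by
    linear_combination isoZ p hp.1 q hq.1
  have add1 : ∀ p q, P p → P q → p.2 q.1 ≠ 0 → ∀ c : F, P (q + c • p) := fun p q hp hq e c =>
    ⟨Z.add_mem hq.1 (Z.smul_mem c hp.1), conj' p q hp.2 hq.2 (isoZ p hp.1 q hq.1) e c⟩
  have add2 : ∀ u v w, P u → P v → P w → u.2 v.1 ≠ 0 → u.2 w.1 ≠ 0 → v.2 w.1 = 0 →
      u.2 v.1 + u.2 w.1 ≠ 0 → P (v + w) := by
    intro u v w hu hv hw e1 e2 e3 e4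
    have a := add1 v u hv hu (by rw [sy v u hv hu]; simpa using e1) 1
    have b := add1 w _ hw a (by
      rw [sy w _ hw a]; simpa [e3] using e2) 1
    have c := add1 u _ hu b (by simpa [hu.2.e] using e4) (-1)
    convert c using 1
    module
  have add3 : ∀ t v w, P t → P v → P w → v.2 w.1 = 0 → t.2 v.1 ≠ 0 → t.2 v.1 + t.2 w.1 ≠ 0 → P (v + w) := by
    intro t v w ht hv hw e1 e2 e3
    by_cases e4 : t.2 w.1 = 0
    swap
    · exact add2 t v w ht hv hw e2 e4 e1 e3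
    obtain ⟨u1, ε, hu, a1, -, a2⟩ := h.ex_opp2 hH hv.2 (ZX v hv.1) hw.2 (ZX w hw.1)
    obtain ⟨c, hc, hu'⟩ := memZ u1 ε hu (h.inv.mem hu (ZX v hv.1) (hS _ _ _ _ hv.2 hu (ZX v hv.1) a1))
    obtain ⟨u, hu, b1, b2⟩ : ∃ u, P u ∧ u.2 v.1 ≠ 0 ∧ u.2 w.1 ≠ 0 := by
      have : P (u1, c • ε) := ⟨hu', hu.smul_right hc⟩
      exact ⟨_, this, by rw [sy _ v this hv]; simpa using a1, by rw [sy _ w this hw]; simpa using a2⟩
    by_cases e5 : u.2 v.1 + u.2 w.1 = 0
    swap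
    · exact add2 u v w hu hv hw b1 b2 e1 e5
    obtain ⟨a, ha, ha'⟩ := hH.ex_c (b := t.2 v.1) b1
    have hP : P (u + a • t) := by
      by_cases e6 : t.2 u.1 = 0
      · have hat : P (a • t) := ⟨Z.smul_mem a ht.1, (ht.2.smul_left ha).smul_right ha⟩
        refine add2 v u _ hv hu hat (by rw [sy v u hv hu]; simpa using b1)
          (by rw [sy v _ hv hat]; simpa [ha] using e2) (by rw [sy u _ hu hat]; simp [e6]) ?_
        rw [sy v u hv hu, sy v _ hv hat, ← neg_add, neg_ne_zero]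
        simpa using ha'
      · exact add1 t u ht hu e6 a
    refine add2 _ v w hP hv hw (by simpa using ha') (by simpa [e4] using b2) e1 ?_
    simp only [Prod.snd_add, Prod.smul_snd, LinearMap.add_apply, LinearMap.smul_apply, smul_eq_mul, e4]
    intro e
    exact mul_ne_zero ha e2 (by linear_combination e - e5)
  have rad : ∀ v w, P v → P w → (∀ t, P t → t.2 v.1 + t.2 w.1 = 0) → v + w = 0 := by
    intro v w hv hw e
    let R : Submodule F V := X ⊓ ⨅ g ∈ H, LinearMap.eqLocus g.toLinearMap LinearMap.id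
    have mR : ∀ r, r ∈ R ↔ r ∈ X ∧ ∀ g ∈ H, g r = r := fun r => by
      simp [R, Submodule.mem_iInf, LinearMap.mem_eqLocus]
    have iR : Inv H R := fun g hg r hr => by rwa [((mR r).1 hr).2 g hg]
    have r1 : v.1 + w.1 ∈ R := by
      have hX : v.1 + w.1 ∈ X := X.add_mem (ZX v hv.1) (ZX w hw.1)
      refine (mR _).2 ⟨hX, fun g hg => ?_⟩
      refine hH.gen (MulAction.stabilizer _ (v.1 + w.1)) (fun z γ g hz e' => ?_) hg
      rw [MulAction.mem_stabilizer_iff, LinearEquiv.smul_def, e', add_eq_left]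
      by_contra e2
      have e3 := left_ne_zero_of_smul e2
      obtain ⟨c, hc, h1⟩ := memZ z γ hz (h.inv.mem hz hX e3)
      have := e _ ⟨h1, hz.smul_right hc⟩
      apply e3
      simpa [← mul_add, hc] using this
    have r2 : ∀ u ∈ X, v.2 u + w.2 u = 0 := by
      intro u hu
      by_contra e2
      obtain ⟨_, ⟨z, ⟨hzX, γ, hz⟩, rfl⟩, e3⟩ := ex_of_span (α := v.2 + w.2) (h.le_span hH h0 x0X
        (D := id '' {w | w ∈ X ∧ ∃ ε, Sg H w ε}) ⟨x0, ⟨x0X, α0, h0⟩, rfl⟩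
        (fun z γ w hz ⟨w', hw, e'⟩ e => Or.inl ⟨z, ⟨h.inv.mem hz (e' ▸ hw.1) e, γ, hz⟩, rfl⟩) hu) e2
      obtain ⟨c, hc, h1⟩ := memZ z γ hz hzX
      have hP : P (z, c • γ) := ⟨h1, hz.smul_right hc⟩
      have := e _ hP
      rw [sy _ v hP hv, sy _ w hP hw] at this
      apply e3
      simp only [id, LinearMap.add_apply]
      linear_combination -this
    obtain ⟨g, hg, eg⟩ := hv.2.mem 1
    obtain ⟨g', hg', eg'⟩ := hw.2.mem (-1)
    have hvw : v.2 w.1 = 0 := by simpa [hv.2.e] using e v hv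
    have app : ∀ u, (g * g') u = u + v.2 u • v.1 - w.2 u • w.1 := fun u => by
      rw [LinearEquiv.mul_apply, eg', eg]
      simp only [map_add, map_smul, hvw]
      module
    have e1 := hH.unip X R h.inv iR (g * g') (H.mul_mem hg hg')
      (fun u => by
        rw [app, show u + v.2 u • v.1 - w.2 u • w.1 - u = v.2 u • v.1 - w.2 u • w.1 by abel]
        exact X.sub_mem (X.smul_mem _ (ZX v hv.1)) (X.smul_mem _ (ZX w hw.1)))
      (fun u hu => by
        rw [app, show w.2 u = -v.2 u by linear_combination r2 u hu,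
          show u + v.2 u • v.1 - -v.2 u • w.1 - u = v.2 u • (v.1 + w.1) by module]
        exact R.smul_mem _ r1)
      (fun u hu => ((mR u).1 hu).2 _ (H.mul_mem hg hg'))
    have e2 : ∀ u, v.2 u • v.1 = w.2 u • w.1 := fun u => by
      have := app u
      rw [e1, LinearEquiv.coe_one, id] at this
      linear_combination (norm := module) -this
    obtain ⟨u, hu, e3⟩ := hH.not_both h.inv hv.2 (ZX v hv.1)
    have e4 : v.1 + w.1 = 0 := by
      have := e2 u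
      rw [show w.2 u = -v.2 u by linear_combination r2 u hu] at this
      have : v.2 u • (v.1 + w.1) = 0 := by linear_combination (norm := module) this
      exact (smul_eq_zero_iff_right e3).1 this
    refine Prod.ext e4 (LinearMap.ext fun u => ?_)
    have := e2 u
    rw [show w.1 = -v.1 by linear_combination (norm := module) e4] at this
    have : (v.2 u + w.2 u) • v.1 = 0 := by linear_combination (norm := module) this
    exact (smul_eq_zero_iff_left hv.2.hx).1 this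
  intro p hp
  have key : p ∈ Z ∧ (p ≠ 0 → Sg H p.1 p.2) := by
    rw [← hZ] at hp
    induction hp using Submodule.span_induction with
    | mem v hv => exact ⟨hZ ▸ Submodule.subset_span hv, fun _ => hv.1⟩
    | zero => simp
    | add a b _ _ ha hb =>
      refine ⟨Z.add_mem ha.1 hb.1, fun h0 => ?_⟩
      by_cases a0 : a = 0
      · rw [a0, zero_add] at h0 ⊢; exact hb.2 h0
      by_cases b0 : b = 0
      · rw [b0, add_zero] at h0 ⊢; exact ha.2 h0
      have Pa : P a := ⟨ha.1, ha.2 a0⟩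
      have Pb : P b := ⟨hb.1, hb.2 b0⟩
      by_cases e : a.2 b.1 = 0
      swap
      · have := add1 a b Pa Pb e 1
        rw [one_smul, add_comm] at this
        exact this.2
      obtain ⟨t, ht, e1⟩ : ∃ t, P t ∧ t.2 a.1 + t.2 b.1 ≠ 0 := by
        by_contra hc
        push Not at hc
        exact h0 (rad a b Pa Pb hc)
      by_cases e2 : t.2 a.1 = 0
      · have := add3 t b a ht Pb Pa (by rw [sy b a Pb Pa, e, neg_zero]) (by simpa [e2] using e1)
          (by rwa [add_comm])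
        rw [add_comm] at this
        exact this.2
      · exact (add3 t a b ht Pa Pb e e2 e1).2
    | smul c a _ ha =>
      refine ⟨Z.smul_mem c ha.1, fun h0 => ?_⟩
      exact ((ha.2 (right_ne_zero_of_smul h0)).smul_left (left_ne_zero_of_smul h0)).smul_right
        (left_ne_zero_of_smul h0)
  exact key.2

end S

end CfsgH8.McL
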