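import Cfsg.Agent.H8.McL2
import Cfsg.Agent.H5.EichGen
import Cfsg.Agent.H5.SLBasic

/-! Groups generated by transvection subgroups: the groups induced on the components. -/

set_option autoImplicit false
set_option linter.unusedSectionVars false

namespace CfsgH8.McL

open Module CfsgH5 Matrix

universe u v

variable {F : Type u} {V : Type v} [Field F] [AddCommGroup V] [Module F V]
variable {H : Subgroup (V ≃ₗ[F] V)} {x y z w : V} {α β γ δ : V →ₗ[F] F} {X Y : Submodule F V}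

theorem sl_le [FiniteDimensional F V] {S : Subgroup (V ≃ₗ[F] V)}
    (h : ∀ (x : V) (α : V →ₗ[F] F) (t : V ≃ₗ[F] V), x ≠ 0 → α ≠ 0 → α x = 0 →
      (∀ v, t v = v + α v • x) → t ∈ S) {g : V ≃ₗ[F] V} (hg : LinearMap.det (g : V →ₗ[F] V) = 1) :
    g ∈ S := by
  let b := Module.finBasis F V
  let φ : SpecialLinearGroup (Fin (finrank F V)) F →* (V ≃ₗ[F] V) :=
    { toFun := fun A => b.equivFun ≪≫ₗ SpecialLinearGroup.toLin' A ≪≫ₗ b.equivFun.symm
      map_one' := by ext v; simp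
      map_mul' := fun A B => by
        ext v
        simp only [LinearEquiv.mul_apply, LinearEquiv.trans_apply, LinearEquiv.apply_symm_apply, map_mul] }
  have ap : ∀ A v, φ A v = b.equivFun.symm (A.1 *ᵥ b.equivFun v) := fun A v => rfl
  have ht : S.comap φ = ⊤ := SL_eq_top_of_transvections _ fun i j hij c => by
    rw [Subgroup.mem_comap]
    by_cases hc : c = 0
    · rw [show SpecialLinearGroup.transvection hij c = 1 from Subtype.ext (by
        rw [hc]; exact Matrix.transvection_zero i j), map_one]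
      exact one_mem _
    refine h (c • b i) (b.coord j) _ (smul_ne_zero hc (b.ne_zero i)) (fun e => by
      simpa using LinearMap.congr_fun e (b j)) (by simp [hij]) fun v => ?_
    rw [ap, LinearEquiv.symm_apply_eq]
    ext k
    simp [SpecialLinearGroup.transvection, Matrix.transvection, add_mulVec, Matrix.single_mulVec,
      Function.update_apply, Finsupp.single_apply, mul_comm, eq_comm]
    exact fun a b => absurd b a
  have : φ ⟨LinearMap.toMatrix b b g, by rw [LinearMap.det_toMatrix, hg]⟩ = g := by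
    ext v
    refine (ap _ _).trans ?_
    rw [LinearEquiv.symm_apply_eq]
    exact LinearMap.toMatrix_mulVec_repr b b g v
  rw [← this]
  exact (ht ▸ Subgroup.mem_top _ : _ ∈ S.comap φ)

theorem Inv.map_eq (hX : Inv H X) {g : V ≃ₗ[F] V} (hg : g ∈ H) : X.map (g : V →ₗ[F] V) = X := by
  apply le_antisymm
  · rintro _ ⟨v, hv, rfl⟩; exact hX g hg v hv
  · exact fun v hv => ⟨g⁻¹ v, hX _ (H.inv_mem hg) v hv, by simp⟩

/-- Restriction to an invariant subspace. -/
def Inv.res (hX : Inv H X) : H →* (X ≃ₗ[F] X) where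
  toFun g := LinearEquiv.ofSubmodules g.1 X X (hX.map_eq g.2)
  map_one' := by ext v; rfl
  map_mul' a b := by ext v; rfl

theorem Inv.res_apply (hX : Inv H X) (g : H) (v : X) : (hX.res g v : V) = g.1 v := rfl

variable (H) in
/-- The group of a component. -/
def K (X : Submodule F V) : Subgroup (V ≃ₗ[F] V) :=
  Subgroup.closure {g | ∃ x α, Sg H x α ∧ x ∈ X ∧ ∀ v, g v = v + α v • x}

theorem K_le : K H X ≤ H := by
  rw [K, Subgroup.closure_le]
  rintro g ⟨x, α, h, -, e⟩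
  exact h.mem_of e

/-- The action of the group of a component. -/
def Inv.rho (hX : Inv H X) : K H X →* (X ≃ₗ[F] X) := hX.res.comp (Subgroup.inclusion K_le)

theorem Inv.range_le (hX : Inv H X) {S : Subgroup (X ≃ₗ[F] X)}
    (h : ∀ (x : X) α (t : X ≃ₗ[F] X), Sg H x α → (∀ v : X, t v = v + α v • x) → t ∈ S) :
    hX.rho.range ≤ S := by
  have : K H X ≤ (S.comap hX.res).map H.subtype := by
    rw [K, Subgroup.closure_le]
    rintro g ⟨x, α, h1, h2, e⟩
    exact ⟨⟨g, h1.mem_of e⟩, h ⟨x, h2⟩ α _ h1 fun v => Subtype.ext (e v), rfl⟩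
  rintro _ ⟨g, rfl⟩
  obtain ⟨g', h1, e⟩ := this g.2
  have : g' = Subgroup.inclusion K_le g := Subtype.ext e
  rw [this] at h1
  exact h1

theorem Inv.mem_range (hX : Inv H X) {x : X} (h : Sg H x α) {t : X ≃ₗ[F] X}
    (e : ∀ v : X, t v = v + α v • x) : t ∈ hX.rho.range := by
  obtain ⟨g, -, e'⟩ := h.mem1
  refine ⟨⟨g, Subgroup.subset_closure ⟨x, α, h, x.2, e'⟩⟩, LinearEquiv.ext fun v => Subtype.ext ?_⟩
  rw [e]; exact e' v

variable (H) in
/-- The common kernel of the axes of a component. -/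
def Perp (X : Submodule F V) : Submodule F V := (Ax H X).dualCoannihilator

theorem mem_Perp {v : V} : v ∈ Perp H X ↔ ∀ x α, Sg H x α → x ∈ X → α v = 0 := by
  rw [Perp, Submodule.mem_dualCoannihilator]
  constructor
  · exact fun h x α h1 h2 => h α (Submodule.subset_span ⟨x, h2, h1⟩)
  · intro h φ hφ
    exact (Submodule.span_le (p := LinearMap.ker (LinearMap.applyₗ v))).2
      (by rintro α ⟨x, h2, h1⟩; exact h x α h1 h2) hφ

theorem K_fix {g : V ≃ₗ[F] V} (hg : g ∈ K H X) {v : V} (hv : v ∈ Perp H X) : g v = v := by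
  have : K H X ≤ MulAction.stabilizer _ v := by
    rw [K, Subgroup.closure_le]
    rintro g ⟨x, α, h1, h2, e⟩
    rw [SetLike.mem_coe, MulAction.mem_stabilizer_iff, LinearEquiv.smul_def, e, mem_Perp.1 hv x α h1 h2]
    simp
  exact this hg

theorem K_normal (hX : Inv H X) : ((K H X).subgroupOf H).Normal := by
  rw [Subgroup.normal_subgroupOf_iff K_le]
  intro k h hk hh
  have : K H X ≤ (K H X).comap (MulAut.conj h).toMonoidHom := by
    rw [K, Subgroup.closure_le]
    rintro g ⟨x, α, h1, h2, e⟩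
    exact Subgroup.subset_closure ⟨_, _, h1.map hh, hX h hh x h2, fun v => by
      simp [LinearEquiv.mul_apply, e]⟩
  exact this hk

theorem Cmp.le_Perp (hX : Cmp H X) (hY : Cmp H Y) (hH : Hyp H) (hne : X ≠ Y) : Y ≤ Perp H X :=
  fun v hv => mem_Perp.2 fun x α h1 h2 => by_contra fun e =>
    hne ((hX.eq hH h1 h2).trans (hY.eq hH h1 (hY.inv.mem h1 hv e)).symm)

theorem Cmp.le_of (h : Cmp H X) (hH : Hyp H) (hY : ∀ x α, Sg H x α → x ∈ X → x ∈ Y) : X ≤ Y := by
  rcases id h with rfl | ⟨x, α, hx, e⟩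
  · exact bot_le
  have hxX : x ∈ X := e ▸ mem_O x
  refine (h.le_span hH hx hxX (D := {w | w ∈ X ∧ ∃ ε, Sg H w ε}) ⟨hxX, α, hx⟩
    (fun z γ w hz hw e => Or.inl ⟨h.inv.mem hz hw.1 e, γ, hz⟩)).trans (Submodule.span_le.2 ?_)
  rintro w ⟨h1, ε, h2⟩
  exact hY w ε h2 h1

variable [FiniteDimensional F V]

theorem Good.compl (h : Good H X) (hX : Cmp H X) (hH : Hyp H) :
    IsCompl X (Perp H X) ∧ ∀ f : X →ₗ[F] F, ∃ α ∈ Ax H X, ∀ v : X, α v = f v := by
  have d : X ⊓ Perp H X = ⊥ := by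
    rw [eq_bot_iff]
    rintro x ⟨h1, h2⟩
    by_contra h0
    obtain ⟨α, hx⟩ := h.1 x h1 h0
    obtain ⟨w, ε, hw, -, e⟩ := hX.ex_opp hH hx h1
    exact e (mem_Perp.1 h2 w ε hw (hX.inv.mem hw h1 e))
  let r : Ax H X →ₗ[F] Dual F X := X.dualRestrict ∘ₗ (Ax H X).subtype
  have ri : Function.Injective r := by
    rw [injective_iff_map_eq_zero]
    intro α hα
    by_contra h0
    obtain ⟨x, hx, h1⟩ := h.2 α.1 α.2 (fun e => h0 (Subtype.ext e))
    obtain ⟨v, hv, e⟩ := hH.not_both hX.inv h1 hx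
    exact e (LinearMap.congr_fun hα ⟨v, hv⟩)
  have e1 := LinearMap.finrank_le_finrank_of_injective ri
  have e2 := Subspace.finrank_add_finrank_dualCoannihilator_eq (Ax H X)
  have e3 := Submodule.finrank_sup_add_finrank_inf_eq X (Perp H X)
  have e4 := Submodule.finrank_le (X ⊔ Perp H X)
  rw [Subspace.dual_finrank_eq] at e1
  rw [d, finrank_bot] at e3
  change finrank F (Ax H X) + finrank F (Perp H X) = _ at e2
  refine ⟨⟨disjoint_iff.2 d, codisjoint_iff.2 (Submodule.eq_top_of_finrank_eq (by omega))⟩, fun f => ?_⟩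
  have e5 : finrank F (Ax H X) = finrank F (Dual F X) := by rw [Subspace.dual_finrank_eq]; omega
  obtain ⟨α, hα⟩ := LinearMap.range_eq_top.1 (Submodule.eq_top_of_finrank_eq
    ((LinearMap.finrank_range_of_inj ri).trans e5)) f
  exact ⟨α.1, α.2, fun v => LinearMap.congr_fun hα v⟩

theorem Cmp.main [Finite (V →ₗ[F] F)] [Finite V] (h : Cmp H X) (hH : Hyp H) : Good H X ∧
    ((h.inv.rho.range : Set (X ≃ₗ[F] X)) = {f : X ≃ₗ[F] X | LinearMap.det (f : X →ₗ[F] X) = 1} ∨
      ∃ B : LinearMap.BilinForm F X, B.IsAlt ∧ B.Nondegenerate ∧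
        (h.inv.rho.range : Set (X ≃ₗ[F] X)) = {f : X ≃ₗ[F] X | ∀ x y, B (f x) (f y) = B x y}) := by
  by_cases hL : CaseL H X
  · refine ⟨h.L4 hH hL, Or.inl (Set.Subset.antisymm ?_ ?_)⟩
    · intro g hg
      have := h.inv.range_le (S := LinearEquiv.det.ker) (fun x α t h1 e => ?_) hg
      · rw [MonoidHom.mem_ker, ← Units.val_inj, LinearEquiv.coe_det] at this
        exact this
      · rw [MonoidHom.mem_ker, ← Units.val_inj, LinearEquiv.coe_det,
          show (t : X →ₗ[F] X) = LinearMap.transvection (α ∘ₗ X.subtype) x from LinearMap.ext e,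
          LinearMap.transvection.det]
        simp [h1.e]
    · intro g hg
      refine sl_le (fun x f t x0 f0 e e' => ?_) hg
      obtain ⟨α, h1, h2⟩ := ((h.L4 hH hL).compl h hH).2 f
      refine h.inv.mem_range (h.L5 hH hL x.2 (fun e => x0 (Subtype.ext e)) h1 (fun e => f0 ?_)
        (by rw [h2, e])) fun v => by rw [h2, e']
      ext v; rw [← h2, e]; rfl
  obtain ⟨Z, iso, hZ, ZX, mem⟩ := h.S hH fun x α y β h1 h2 h3 h4 h5 => hL ⟨x, α, y, β, h1, h2, h3, h4, h5⟩
  let π : Z →ₗ[F] X := LinearMap.codRestrict X (LinearMap.fst F _ _ ∘ₗ Z.subtype) fun p => ZX p p.2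
  have πi : Function.Injective π := by
    rw [injective_iff_map_eq_zero]
    intro p hp
    by_contra h0
    exact (hZ p p.2 fun e => h0 (Subtype.ext e)).hx (congrArg Subtype.val hp)
  have πs : Function.Surjective π := by
    intro x
    obtain ⟨p, hp, e⟩ := h.le_of hH (Y := Z.map (LinearMap.fst F _ _)) (fun x α h1 h2 => by
      obtain ⟨c, -, h3⟩ := mem x α h1 h2
      exact ⟨_, h3, rfl⟩) x.2
    exact ⟨⟨p, hp⟩, Subtype.ext e⟩
  let ψ : X →ₗ[F] V →ₗ[F] F :=
    LinearMap.snd F _ _ ∘ₗ Z.subtype ∘ₗ (LinearEquiv.ofBijective π ⟨πi, πs⟩).symm.toLinearMap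
  have ψ1 : ∀ p (hp : p ∈ Z), ψ ⟨p.1, ZX p hp⟩ = p.2 := fun p hp => by
    have : (LinearEquiv.ofBijective π ⟨πi, πs⟩).symm ⟨p.1, ZX p hp⟩ = ⟨p, hp⟩ := by
      rw [LinearEquiv.symm_apply_eq]; rfl
    simp [ψ, this]
  have ψ2 : ∀ x : X, (x.1, ψ x) ∈ Z := fun x => by
    obtain ⟨p, rfl⟩ := πs x
    have := ψ1 p p.2
    change (p.1.1, ψ ⟨p.1.1, _⟩) ∈ Z
    rw [this]; exact p.2
  have ψ3 : ∀ x : X, x ≠ 0 → Sg H x (ψ x) := fun x x0 =>
    hZ _ (ψ2 x) fun e => x0 (Subtype.ext (congrArg Prod.fst e))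
  have ψ4 : ∀ x y : X, ψ x y = -ψ y x := fun x y => by linear_combination iso _ (ψ2 x) _ (ψ2 y)
  have hB : LinearMap.BilinForm.IsAlt (ψ.compl₂ X.subtype) := fun x => by
    by_cases x0 : x = 0
    · simp [x0]
    · exact (ψ3 x x0).e
  have hN : LinearMap.Nondegenerate (ψ.compl₂ X.subtype) := by
    rw [LinearMap.IsRefl.nondegenerate_iff_separatingLeft hB.isRefl]
    intro x hx
    by_contra x0
    obtain ⟨v, hv, e⟩ := hH.not_both h.inv (ψ3 x x0) x.2
    exact e (hx ⟨v, hv⟩)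
  refine ⟨⟨fun x hx x0 => ⟨_, ψ3 ⟨x, hx⟩ fun e => x0 (congrArg Subtype.val e)⟩, fun α hα α0 => ?_⟩,
    Or.inr ⟨ψ.compl₂ X.subtype, hB, hN, ?_⟩⟩
  · obtain ⟨p, hp, rfl⟩ := (Submodule.span_le (p := Z.map (LinearMap.snd F _ _))).2 (by
      rintro γ ⟨z, hz, h1⟩
      obtain ⟨c, hc, h3⟩ := mem z γ h1 hz
      exact ⟨_, Z.smul_mem c⁻¹ h3, by simp [hc]⟩) hα
    exact ⟨p.1, ZX p hp, hZ p hp fun e => α0 (by simp [e])⟩
  have : h.inv.rho.range = (CForm.ofAlt _ hB).Isom := by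
    apply le_antisymm
    · refine h.inv.range_le fun x α t h1 e => CForm.mem_Isom_symp.2 fun u v => ?_
      obtain ⟨c, hc, h3⟩ := mem x α h1 x.2
      have h4 : ψ x = c • α := ψ1 _ h3
      rw [CForm.ofAlt_B, CForm.ofAlt_B, e, e]
      simp only [map_add, map_smul, LinearMap.add_apply, LinearMap.smul_apply, LinearMap.compl₂_apply,
        Submodule.subtype_apply, smul_eq_mul, ψ4 u x, h4, h1.e]
      ring
    · rw [CForm.symp_Isom_eq_Tr (CForm.ofAlt_nondeg hB hN)]
      refine CForm.Tr_le fun g x c hg => ?_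
      have e : ∀ v, g v = v + (-c • ψ x) v • x := fun v => by
        rw [hg.app]
        simp only [CForm.ofAlt_B, FP.symp_ε, LinearMap.compl₂_apply, Submodule.subtype_apply, ψ4 v x,
          map_zero, ZeroMemClass.coe_zero, LinearMap.smul_apply, smul_eq_mul]
        module
      by_cases h0 : x = 0 ∨ c = 0
      · rw [show g = 1 from LinearEquiv.ext fun v => by rcases h0 with h0 | h0 <;> simp [e, h0]]
        exact one_mem _
      push Not at h0
      exact h.inv.mem_range ((ψ3 x h0.1).smul_right (neg_ne_zero.2 h0.2)) e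
  rw [this]
  ext g
  exact CForm.mem_Isom_symp

theorem Hyp.final [Finite (V →ₗ[F] F)] [Finite V] (hH : Hyp H) :
    ∃ (n : ℕ) (W : Fin (n + 1) → Submodule F V) (K : Fin n → Subgroup (V ≃ₗ[F] V)),
      1 ≤ n ∧ DirectSum.IsInternal W ∧
      (∀ h ∈ H, ∀ i, (W i).map (h : V →ₗ[F] V) = W i) ∧
      (∀ j, K j ≤ H ∧ ((K j).subgroupOf H).Normal) ∧ ⨆ j, K j = H ∧
      (∀ j, K j ⊓ (⨆ j' ∈ {j' : Fin n | j' ≠ j}, K j') = ⊥) ∧
      (∀ j j', j ≠ j' → ∀ a ∈ K j, ∀ b ∈ K j', a * b = b * a) ∧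
      (∀ j, ∀ h ∈ K j, ∀ i : Fin (n + 1), i ≠ j.succ → ∀ v ∈ W i, h v = v) ∧
      (∀ j, ∃ ρ : ↥(K j) →* (↥(W j.succ) ≃ₗ[F] ↥(W j.succ)),
        (∀ (h : ↥(K j)) (v : ↥(W j.succ)), ((ρ h v : ↥(W j.succ)) : V) = (h : V ≃ₗ[F] V) (v : V)) ∧
        ((ρ.range : Set (↥(W j.succ) ≃ₗ[F] ↥(W j.succ))) =
            {f : ↥(W j.succ) ≃ₗ[F] ↥(W j.succ) | LinearMap.det (f : ↥(W j.succ) →ₗ[F] ↥(W j.succ)) = 1} ∨
          ∃ B : LinearMap.BilinForm F ↥(W j.succ), B.IsAlt ∧ B.Nondegenerate ∧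
            (ρ.range : Set (↥(W j.succ) ≃ₗ[F] ↥(W j.succ))) =
              {f : ↥(W j.succ) ≃ₗ[F] ↥(W j.succ) | ∀ x y, B (f x) (f y) = B x y})) := by
  classical
  haveI : Finite (Submodule F V) := Finite.of_injective _ SetLike.coe_injective
  obtain ⟨n, ⟨e⟩⟩ := Finite.exists_equiv_fin {X : Submodule F V // Cmp H X}
  let X : Fin n → Submodule F V := fun j => (e.symm j).1
  have hX : ∀ j, Cmp H (X j) := fun j => (e.symm j).2
  have Xi : ∀ j j', j ≠ j' → X j ≠ X j' := fun j j' h e' => h (e.symm.injective (Subtype.ext e'))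
  have Xs : ∀ x α, Sg H x α → ∃ j, x ∈ X j := fun x α h =>
    ⟨e ⟨O H x, Or.inr ⟨x, α, h, rfl⟩⟩, by simpa [X] using mem_O x⟩
  have cp := fun j => (((hX j).main hH).1.compl (hX j) hH).1
  let W : Fin (n + 1) → Submodule F V := Fin.cons (Perp H ⊤) X
  have hW : ∀ j i, i ≠ Fin.succ j → W i ≤ Perp H (X j) := fun j i => by
    refine Fin.cases (fun _ v hv => mem_Perp.2 fun x α h _ => mem_Perp.1 hv x α h trivial) (fun i hi => ?_) i
    exact (hX j).le_Perp (hX i) hH (Xi j i fun e => hi (e ▸ rfl))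
  have iW : ∀ i, Inv H (W i) := fun i => by
    refine Fin.cases (hH.inv_of fun x α h v hv e => ?_) (fun j => (hX j).inv) i
    exact absurd (mem_Perp.1 hv x α h trivial) e
  have top : iSup W = ⊤ := by
    rw [eq_top_iff]
    intro v _
    have : ∀ j, ∃ x ∈ X j, v - x ∈ Perp H (X j) := fun j => by
      obtain ⟨a, ha, b, hb, e⟩ := Submodule.mem_sup.1 ((cp j).sup_eq_top ▸ Submodule.mem_top (x := v))
      exact ⟨a, ha, by rw [← e]; simpa using hb⟩
    choose x hx hx' using this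
    have h0 : v - ∑ j, x j ∈ W 0 := by
      refine mem_Perp.2 fun z γ hz _ => ?_
      obtain ⟨j, hj⟩ := Xs z γ hz
      rw [map_sub, map_sum, Finset.sum_eq_single j (fun i _ hi => mem_Perp.1
        (hW j i.succ (fun e => hi (Fin.succ_injective _ e)) (hx i)) z γ hz hj) (by simp), ← map_sub]
      exact mem_Perp.1 (hx' j) z γ hz hj
    have : v = (v - ∑ j, x j) + ∑ j, x j := by abel
    rw [this]
    exact Submodule.add_mem _ (Submodule.mem_iSup_of_mem 0 h0)
      (Submodule.sum_mem _ fun j _ => Submodule.mem_iSup_of_mem j.succ (hx j))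
  have ext : ∀ a b : V ≃ₗ[F] V, (∀ i, ∀ v ∈ W i, a v = b v) → a = b := fun a b h => by
    ext v
    have : iSup W ≤ LinearMap.eqLocus a.toLinearMap b.toLinearMap := iSup_le fun i v hv => h i v hv
    exact this (top ▸ Submodule.mem_top)
  refine ⟨n, W, fun j => K H (X j), (e ⟨⊥, Or.inl rfl⟩).pos, ?_, fun h hh i => (iW i).map_eq hh,
    fun j => ⟨K_le, K_normal (hX j).inv⟩, ?_, ?_, ?_, fun j h hh i hi v hv => K_fix hh (hW j i hi hv),
    fun j => ⟨(hX j).inv.rho, fun _ _ => rfl, ((hX j).main hH).2⟩⟩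
  · rw [DirectSum.isInternal_submodule_iff_iSupIndep_and_iSup_eq_top,
      iSupIndep_iff_finsetSum_eq_zero_imp_eq_zero]
    refine ⟨fun s v hv e => ?_, top⟩
    have key : ∀ j : Fin n, j.succ ∈ s → v j.succ = 0 := fun j hj => by
      rw [← Finset.add_sum_erase _ _ hj, add_eq_zero_iff_eq_neg] at e
      refine (Submodule.disjoint_def.1 (cp j).disjoint) _ (hv _ hj) ?_
      rw [e]
      exact Submodule.neg_mem _ (Submodule.sum_mem _ fun i hi =>
        hW j i (Finset.ne_of_mem_erase hi) (hv i (Finset.mem_of_mem_erase hi)))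
    intro i hi
    refine Fin.cases (fun hi => ?_) key i hi
    rw [← e, Finset.sum_eq_single_of_mem 0 hi]
    intro b hb
    exact Fin.cases (fun _ h => absurd rfl h) (fun j hj _ => key j hj) b hb
  · refine le_antisymm (iSup_le fun j => K_le) (hH.gen _ fun x α g h e => ?_)
    obtain ⟨j, hj⟩ := Xs x α h
    exact Subgroup.mem_iSup_of_mem j (Subgroup.subset_closure ⟨x, α, h, hj, e⟩)
  · intro j
    rw [eq_bot_iff]
    rintro g ⟨h1, h2⟩
    refine ext g 1 fun i v hv => ?_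
    by_cases hi : i = j.succ
    · subst hi
      have : (⨆ j' ∈ {j' : Fin n | j' ≠ j}, K H (X j')) ≤ MulAction.stabilizer _ v :=
        iSup₂_le fun j' hj' g hg => K_fix hg (hW j' _ (fun e => hj' (Fin.succ_injective _ e).symm) hv)
      exact this h2
    · exact K_fix h1 (hW j i hi hv)
  · intro j j' hne a ha b hb
    refine ext _ _ fun i v hv => ?_
    rw [LinearEquiv.mul_apply, LinearEquiv.mul_apply]
    by_cases hi : i = j.succ
    · have hi' : i ≠ j'.succ := fun e => hne (Fin.succ_injective _ (hi.symm.trans e))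
      rw [K_fix hb (hW j' i hi' hv), K_fix hb (hW j' i hi' (iW i a (K_le ha) v hv))]
    · rw [K_fix ha (hW j i hi hv), K_fix ha (hW j i hi (iW i b (K_le hb) v hv))]

end CfsgH8.McL
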