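import Cfsg.Agent.H1.Schmidt
import Cfsg.Agent.H1.SylowIn

/-! Orders of nilpotent permutation groups. -/

set_option autoImplicit false
open MulAction Subgroup Nat Pointwise

namespace CfsgH8.Nilp

theorem dec {G : Type*} [Group G] [Finite G] (g : G) {p : ℕ} (hp : p.Prime) :
    ∃ u v : G, g = v * u ∧ (∃ k, u ^ p ^ k = 1) ∧ (orderOf v).Coprime p ∧ v ∈ zpowers g := by
  obtain ⟨k, m, hm, e⟩ := Nat.exists_eq_pow_mul_and_not_dvd (orderOf_pos g).ne' p hp.ne_one
  have hc : (p ^ k).Coprime m := Nat.Coprime.pow_left k ((Nat.Prime.coprime_iff_not_dvd hp).2 hm)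
  obtain ⟨c, h1, h2⟩ := Nat.chineseRemainder hc 1 0
  refine ⟨g ^ c, g * (g ^ c)⁻¹, by simp, ⟨k, ?_⟩, ?_, mul_mem (mem_zpowers g) (inv_mem (pow_mem (mem_zpowers g) _))⟩
  · rw [← pow_mul, ← orderOf_dvd_iff_pow_eq_one, e, mul_comm]
    exact Nat.mul_dvd_mul_right ((Nat.modEq_zero_iff_dvd).1 h2) _
  · refine Nat.Coprime.coprime_dvd_left (orderOf_dvd_of_pow_eq_one (n := m) ?_) ((Nat.Prime.coprime_iff_not_dvd hp).2 hm).symm
    rw [((Commute.refl g).pow_right c).inv_right.mul_pow, inv_pow, mul_inv_eq_one, ← pow_mul, pow_eq_pow_iff_modEq, e]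
    simpa using (h1.symm.mul_right' m)

section
variable {G Ω : Type*} [Group G] [Finite G] [MulAction G Ω] [Finite Ω]

theorem fix_normal {S : Set Ω} (hS : ∀ (g : G), ∀ x ∈ S, g • x ∈ S) : (fixingSubgroup G S).Normal :=
  ⟨fun u hu g => (mem_fixingSubgroup_iff G).2 fun y hy => by
    rw [mul_smul, mul_smul, (mem_fixingSubgroup_iff G).1 hu _ (hS g⁻¹ y hy), smul_inv_smul]⟩

theorem orb (hG : Group.IsNilpotent G) (x : Ω) {p : ℕ} (hp : p.Prime) :
    (fixingSubgroup G (orbit G x)).index.factorization p ≤ (p ^ (orbit G x).ncard.factorization p)!.factorization p := by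
  haveI := Fact.mk hp
  obtain ⟨P⟩ : Nonempty (Sylow p G) := inferInstance
  haveI hP : (P : Subgroup G).Normal := inferInstance
  let ψ := toPermHom (P : Subgroup G) (orbit (P : Subgroup G) x)
  have h1 : ψ.ker ≤ (fixingSubgroup G (orbit G x)).subgroupOf P := by
    intro u hu
    rw [mem_subgroupOf, mem_fixingSubgroup_iff]
    rintro _ ⟨g, rfl⟩
    obtain ⟨u', v, rfl, ⟨k, hk⟩, hv, -⟩ := dec g hp
    have hu' : u' ∈ (P : Subgroup G) := by
      have : IsPGroup p (zpowers u') := IsPGroup.of_card_dvd_pow (n := k) (by rw [Nat.card_zpowers]; exact orderOf_dvd_of_pow_eq_one hk)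
      obtain ⟨Q, hQ⟩ := this.exists_le_sylow
      haveI := Sylow.unique_of_normal P hP
      rw [Subsingleton.elim P Q]; exact hQ (mem_zpowers _)
    obtain ⟨j, hj⟩ := P.isPGroup' u
    have hc : (u : G) * v = v * u := CfsgH1.commute_of_coprime_of_nilpotent (L := ⊤) inferInstance trivial trivial
      (Nat.Coprime.coprime_dvd_left (orderOf_dvd_of_pow_eq_one (n := p ^ j) (congrArg Subtype.val hj)) (hv.symm.pow_left j))
    have h2 : (u : G) • u' • x = u' • x := by
      have := congrArg Subtype.val (DFunLike.congr_fun (MonoidHom.mem_ker.1 hu)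
        (⟨u' • x, ⟨u', hu'⟩, rfl⟩ : orbit (P : Subgroup G) x))
      exact this
    simp only [smul_smul] at h2 ⊢
    rw [← mul_assoc, hc, mul_assoc, mul_smul, h2, mul_smul]
  have h2 : (fixingSubgroup G (orbit G x)).relIndex P ∣ (Nat.card (orbit (P : Subgroup G) x))! := by
    refine (index_dvd_of_le h1).trans ?_
    rw [index_ker, ← Nat.card_perm]
    exact card_subgroup_dvd_card _
  have h3 : Nat.card (orbit (P : Subgroup G) x) ∣ p ^ (orbit G x).ncard.factorization p := by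
    have e1 : Nat.card (orbit (P : Subgroup G) x) = (stabilizer G x).relIndex P := by
      rw [Nat.card_coe_set_eq, ← index_stabilizer]; rfl
    obtain ⟨j, hj⟩ := P.isPGroup'.index ((stabilizer G x).subgroupOf P)
    have e2 : (stabilizer G x).relIndex P = p ^ j := hj
    rw [e1, e2]
    apply pow_dvd_pow
    rw [← index_stabilizer, ← hp.pow_dvd_iff_le_factorization index_ne_zero_of_finite]
    have a1 := relIndex_mul_index (inf_le_right : stabilizer G x ⊓ P ≤ P)
    have a2 := relIndex_mul_index (inf_le_left : stabilizer G x ⊓ P ≤ stabilizer G x)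
    rw [inf_relIndex_right, e2] at a1
    rw [inf_relIndex_left] at a2
    have a3 : ((P : Subgroup G).relIndex (stabilizer G x)).Coprime (p ^ j) :=
      Nat.Coprime.pow_right j (Nat.Coprime.coprime_dvd_left (relIndex_dvd_index_of_normal _ _)
        ((Nat.Prime.coprime_iff_not_dvd hp).2 P.not_dvd_index).symm)
    exact a3.symm.dvd_of_dvd_mul_left (a2 ▸ a1 ▸ Dvd.intro _ rfl)
  have h4 : (fixingSubgroup G (orbit G x)).index ∣ (p ^ (orbit G x).ncard.factorization p)! * (P : Subgroup G).index := by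
    refine (index_dvd_of_le (inf_le_left : _ ⊓ (P : Subgroup G) ≤ _)).trans ?_
    rw [← relIndex_mul_index inf_le_right, inf_relIndex_right]
    exact Nat.mul_dvd_mul_right (h2.trans (Nat.factorial_dvd_factorial (Nat.le_of_dvd (pow_pos hp.pos _) h3))) _
  have h5 := (Nat.factorization_le_iff_dvd index_ne_zero_of_finite
    (mul_ne_zero (Nat.factorial_ne_zero _) index_ne_zero_of_finite)).2 h4 p
  rwa [Nat.factorization_mul (Nat.factorial_ne_zero _) index_ne_zero_of_finite, Finsupp.add_apply,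
    Nat.factorization_eq_zero_of_not_dvd P.not_dvd_index, add_zero] at h5
end

def b (d : ℕ) : ℕ := ∏ p ∈ d.primeFactors, p ^ (p ^ d.factorization p)!.factorization p

theorem dvd_b {c d : ℕ} (hc : c ≠ 0) (h : ∀ p : ℕ, p.Prime → c.factorization p ≤ (p ^ d.factorization p)!.factorization p) :
    c ∣ b d := by
  conv_lhs => rw [← Nat.prod_factorization_pow_eq_self hc]
  rw [Finsupp.prod, Nat.support_factorization]
  refine (Finset.prod_dvd_prod_of_dvd _ _ fun p hp => pow_dvd_pow p (h p (Nat.prime_of_mem_primeFactors hp))).trans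
    (Finset.prod_dvd_prod_of_subset _ _ _ fun p hp => ?_)
  by_contra hn
  have h1 := h p (Nat.prime_of_mem_primeFactors hp)
  rw [← Nat.support_factorization, Finsupp.notMem_support_iff] at hn
  rw [← Nat.support_factorization, Finsupp.mem_support_iff] at hp
  rw [hn] at h1
  simp at h1
  exact hp h1

theorem b_mul {x y : ℕ} (h : x.Coprime y) : b (x * y) = b x * b y := by
  rw [b, h.primeFactors_mul, Finset.prod_union h.disjoint_primeFactors, b, b]
  congr 1 <;> apply Finset.prod_congr rfl <;> intro p hp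
  · rw [Nat.factorization_eq_of_coprime_left h (by simpa using hp)]
  · rw [Nat.factorization_eq_of_coprime_right h (by simpa using hp)]

theorem vfac {p : ℕ} (hp : p.Prime) (k : ℕ) : (p - 1) * (p ^ k)!.factorization p + 1 = p ^ k := by
  haveI := Fact.mk hp
  rw [Nat.factorization_def _ hp]
  induction k with
  | zero => simp
  | succ k ih =>
    rw [pow_succ', padicValNat_factorial_mul, mul_add]
    obtain ⟨q, rfl⟩ : ∃ q, p = q + 1 := ⟨p - 1, by have := hp.pos; omega⟩
    simp only [Nat.add_sub_cancel] at ih ⊢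
    nlinarith

theorem b_pp {p : ℕ} (hp : p.Prime) (k : ℕ) : b (p ^ k) = p ^ (p ^ k)!.factorization p := by
  rcases k.eq_zero_or_pos with rfl | hk
  · simp [b]
  · rw [b, Nat.primeFactors_prime_pow hk.ne' hp, Finset.prod_singleton, hp.factorization_pow, Finsupp.single_eq_same]

theorem b_p {p : ℕ} (hp : p.Prime) : b p = p := by
  have h1 := b_pp hp 1
  have h2 := vfac hp 1
  rw [pow_one] at h1 h2
  have h3 : (p - 1) * (p !).factorization p = (p - 1) * 1 := by omega
  rw [h1, Nat.eq_of_mul_eq_mul_left (by have := hp.two_le; omega) h3, pow_one]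

theorem b_odd (d : ℕ) (hd : Odd d) : b d ^ 2 ≤ 3 ^ (d - 1) := by
  induction d using Nat.recOnPosPrimePosCoprime with
  | zero => simp at hd
  | one => simp [b]
  | prime_pow p k hp hk =>
    have h3 : 3 ≤ p := by
      have := hp.two_le
      rcases (by omega : p = 2 ∨ 3 ≤ p) with rfl | h
      · exact absurd ((Nat.odd_pow_iff hk.ne').1 hd) (by decide)
      · exact h
    have h4 : ∀ q, 3 ≤ q → q ^ 2 ≤ 3 ^ (q - 1) := by
      intro q hq
      induction q, hq using Nat.le_induction with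
      | base => norm_num
      | succ q hq ih =>
        rw [show q + 1 - 1 = q - 1 + 1 by omega, pow_succ 3]; nlinarith
    rw [b_pp hp, ← vfac hp k, vfac hp k, ← pow_mul, mul_comm, pow_mul]
    conv_rhs => rw [← vfac hp k, Nat.add_sub_cancel, pow_mul]
    exact Nat.pow_le_pow_left (h4 p h3) _
  | coprime x y hx hy h ihx ihy =>
    rw [Nat.odd_mul] at hd
    rw [b_mul h, mul_pow]
    refine (Nat.mul_le_mul (ihx hd.1) (ihy hd.2)).trans ?_
    rw [← pow_add]
    refine Nat.pow_le_pow_right (by norm_num) ?_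
    obtain ⟨x, rfl⟩ : ∃ t, x = t + 1 := ⟨x - 1, by omega⟩
    obtain ⟨y, rfl⟩ : ∃ t, y = t + 1 := ⟨y - 1, by omega⟩
    rw [show (x + 1) * (y + 1) = x * y + x + y + 1 by ring]
    omega

theorem b_sq {d : ℕ} (h0 : d ≠ 0) (hd : ∀ i, d ≠ 2 ^ i) : b d ^ 2 ≤ 3 ^ (d - 1) := by
  obtain ⟨i, m, hm, rfl⟩ := Nat.exists_eq_two_pow_mul_odd h0
  have h3 : 3 ≤ m := by
    obtain ⟨t, rfl⟩ := hm
    rcases t with _ | t
    · exact absurd (by simp) (hd i)
    · omega
  rw [b_mul (Nat.Coprime.pow_left i ((Nat.coprime_two_left).2 hm)), mul_pow, b_pp Nat.prime_two]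
  have h1 := vfac Nat.prime_two i
  generalize (2 ^ i)!.factorization 2 = v at *
  rw [← h1]
  refine (Nat.mul_le_mul_left _ (b_odd m hm)).trans ?_
  rw [← pow_mul, mul_comm v, pow_mul]
  refine (Nat.mul_le_mul_right _ (Nat.pow_le_pow_left (show 2 ^ 2 ≤ 3 ^ 3 by norm_num) v)).trans ?_
  rw [← pow_mul, ← pow_add]
  refine Nat.pow_le_pow_right (by norm_num) ?_
  obtain ⟨m, rfl⟩ : ∃ t, m = t + 3 := ⟨m - 3, by omega⟩
  rw [show ((2 - 1) * v + 1) * (m + 3) = v * m + 3 * v + m + 3 by ring]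
  omega

def T (a : ℕ) : ℕ := [1, 0, 0, 3, 0, 5, 9, 7, 15, 81, 25, 45, 243, 75, 405, 729].getD a 0

theorem b_T {d : ℕ} (h0 : d ≠ 0) (hd : ∀ i, d ≠ 2 ^ i) (h : d ≤ 15) : b d ≤ T d := by
  have b2 := b_p Nat.prime_two
  have b3 := b_p Nat.prime_three
  have b5 := b_p Nat.prime_five
  have b7 := b_p (show Nat.Prime 7 by norm_num)
  have b4 : b 4 = 8 := by
    have h1 := b_pp Nat.prime_two 2
    have h2 := vfac Nat.prime_two 2
    rw [show (2 ^ 2)!.factorization 2 = 3 by omega] at h1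
    exact h1
  have b9 : b 9 = 81 := by
    have h1 := b_pp Nat.prime_three 2
    have h2 := vfac Nat.prime_three 2
    rw [show (3 ^ 2)!.factorization 3 = 4 by omega] at h1
    exact h1
  interval_cases d
  · exact absurd rfl h0
  · exact absurd rfl (hd 0)
  · exact absurd rfl (hd 1)
  · rw [b3]; decide
  · exact absurd rfl (hd 2)
  · rw [b5]; decide
  · rw [b_mul (x := 2) (y := 3) (by norm_num), b2, b3]; decide
  · rw [b7]; decide
  · exact absurd rfl (hd 3)
  · rw [b9]; decide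
  · rw [b_mul (x := 2) (y := 5) (by norm_num), b2, b5]; decide
  · rw [b_p (by norm_num)]; decide
  · rw [b_mul (x := 4) (y := 3) (by norm_num), b4, b3]; decide
  · rw [b_p (by norm_num)]; decide
  · rw [b_mul (x := 2) (y := 7) (by norm_num), b2, b7]; decide
  · rw [b_mul (x := 3) (y := 5) (by norm_num), b3, b5]; decide

def PP (a c : ℕ) : Prop := c ^ 2 ≤ 3 ^ (a - 1) ∧ (a ≤ 15 → c ≤ T a)

theorem PP.mul {a c d e : ℕ} (h1 : PP a c) (h2 : PP d e) (h : 1 ≤ a) : PP (a + d) (c * e) := by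
  refine ⟨?_, fun h3 => ?_⟩
  · rw [mul_pow]
    refine (Nat.mul_le_mul h1.1 h2.1).trans ?_
    rw [← pow_add]
    exact Nat.pow_le_pow_right (by norm_num) (by omega)
  · refine (Nat.mul_le_mul (h1.2 (by omega)) (h2.2 (by omega))).trans ?_
    have : ∀ a ≤ 15, ∀ d ≤ 15, a + d ≤ 15 → T a * T d ≤ T (a + d) := by decide
    exact this a (by omega) d (by omega) h3

theorem PP.mono {a c e : ℕ} (h1 : PP a c) (h : e ≤ c) : PP a e :=
  ⟨(Nat.pow_le_pow_left h 2).trans h1.1, fun h2 => h.trans (h1.2 h2)⟩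

def f (n : ℕ) : ℕ := 2 ^ (n !).factorization 2

theorem f_add (a d : ℕ) : f a * f d ≤ f (a + d) := by
  rw [f, f, f, ← pow_add]
  refine Nat.pow_le_pow_right two_pos ?_
  have := (Nat.factorization_le_iff_dvd (mul_ne_zero (Nat.factorial_ne_zero _) (Nat.factorial_ne_zero _)) (Nat.factorial_ne_zero _)).2
    (Nat.factorial_mul_factorial_dvd_factorial_add a d) 2
  rwa [Nat.factorization_mul (Nat.factorial_ne_zero _) (Nat.factorial_ne_zero _)] at this

theorem le_f {n k : ℕ} (h : 2 ^ k ∣ n !) : 2 ^ k ≤ f n :=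
  Nat.pow_le_pow_right two_pos ((Nat.prime_two.pow_dvd_iff_le_factorization (Nat.factorial_ne_zero _)).1 h)

theorem f_succ (n : ℕ) : f (n + 1) = 2 ^ (n + 1).factorization 2 * f n := by
  rw [f, f, Nat.factorial_succ, Nat.factorization_mul (by omega) (Nat.factorial_ne_zero _), Finsupp.add_apply, pow_add]

theorem f_odd {n : ℕ} (h : n % 2 = 0) : f (n + 1) = f n := by
  rw [f_succ, Nat.factorization_eq_zero_of_not_dvd (by omega)]; simp

theorem f_two {n : ℕ} (h : n % 4 = 1) : f (n + 1) = 2 * f n := by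
  obtain ⟨m, hm⟩ : ∃ m, n + 1 = 2 * m := ⟨(n + 1) / 2, by omega⟩
  rw [f_succ, hm, Nat.factorization_mul two_ne_zero (by omega), Finsupp.add_apply, Nat.prime_two.factorization_self,
    Nat.factorization_eq_zero_of_not_dvd (by omega)]; simp

theorem f_ge {n k : ℕ} (h : 2 ^ k ∣ n + 1) : 2 ^ k * f n ≤ f (n + 1) := by
  rw [f_succ]
  exact Nat.mul_le_mul_right _ (Nat.pow_le_pow_right two_pos ((Nat.prime_two.pow_dvd_iff_le_factorization (by omega)).1 h))

theorem f_three {n : ℕ} (h : n % 4 = 0) : f (n + 3) = 2 * f n := by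
  rw [f_odd (n := n + 2) (by omega), f_two (n := n + 1) (by omega), f_odd (by omega)]

theorem f_three' {n : ℕ} (h : n % 4 ≠ 0) : 4 * f n ≤ f (n + 3) := by
  have a0 : ∀ n, f n ≤ f (n + 1) := fun n => by simpa using f_ge (n := n) (k := 0) (by simp)
  have a1 := a0 n
  have a2 : f (n + 1) ≤ f (n + 2) := a0 (n + 1)
  have a3 : f (n + 2) ≤ f (n + 3) := a0 (n + 2)
  rcases (by omega : n % 4 = 1 ∨ n % 4 = 2 ∨ n % 4 = 3) with h | h | h
  · have : 2 ^ 2 * f (n + 2) ≤ f (n + 3) := f_ge (n := n + 2) (k := 2) (by omega)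
    omega
  · have : 2 ^ 2 * f (n + 1) ≤ f (n + 2) := f_ge (n := n + 1) (k := 2) (by omega)
    omega
  · have := f_ge (n := n) (k := 2) (by omega)
    omega

theorem f_big (a : ℕ) (h : 16 ≤ a) : 4 * 3 ^ (a - 1) ≤ f a ^ 2 := by
  induction a using Nat.strong_induction_on with
  | _ a ih =>
    by_cases h2 : a < 32
    · have : ∀ a < 32, 16 ≤ a → ∃ k < 32, 2 ^ k ∣ a ! ∧ 4 * 3 ^ (a - 1) ≤ (2 ^ k) ^ 2 := by decide +kernel
      obtain ⟨k, -, h3, h4⟩ := this a h2 h
      exact h4.trans (Nat.pow_le_pow_left (le_f h3) 2)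
    · obtain ⟨a, rfl⟩ : ∃ t, a = t + 16 := ⟨a - 16, by omega⟩
      have h3 := ih a (by omega) (by omega)
      have h4 := Nat.pow_le_pow_left ((Nat.mul_le_mul_left _ (le_f (n := 16) (k := 15) (by decide))).trans (f_add a 16)) 2
      rw [show a + 16 - 1 = a - 1 + 16 by omega, pow_add]
      rw [mul_pow] at h4
      omega

theorem PP.cases {a c : ℕ} (h : PP a c) : (a = 0 ∧ c ≤ 1) ∨ (a = 3 ∧ c ≤ 3) ∨ (a = 5 ∧ c ≤ 5) ∨ (a = 6 ∧ c ≤ 9) ∨
    (a = 9 ∧ c ≤ 81) ∨ 2 * c ≤ f a := by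
  by_cases h1 : a ≤ 15
  · have h2 := h.2 h1
    have : ∀ a ≤ 15, a = 0 ∨ a = 3 ∨ a = 5 ∨ a = 6 ∨ a = 9 ∨ ∃ k < 16, 2 ^ k ∣ a ! ∧ 2 * T a ≤ 2 ^ k := by decide +kernel
    rcases this a h1 with rfl | rfl | rfl | rfl | rfl | ⟨k, -, h3, h4⟩
    · exact Or.inl ⟨rfl, h2⟩
    · exact Or.inr (Or.inl ⟨rfl, h2⟩)
    · exact Or.inr (Or.inr (Or.inl ⟨rfl, h2⟩))
    · exact Or.inr (Or.inr (Or.inr (Or.inl ⟨rfl, h2⟩)))
    · exact Or.inr (Or.inr (Or.inr (Or.inr (Or.inl ⟨rfl, h2⟩))))
    · have := le_f h3; omega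
  · have h2 := f_big a (by omega)
    have h3 := h.1
    have : (2 * c) ^ 2 ≤ f a ^ 2 := by rw [mul_pow]; omega
    have := (Nat.pow_le_pow_iff_left two_ne_zero).1 this
    omega

section
variable {G Ω : Type*} [Group G] [Finite G] [MulAction G Ω] [Finite Ω]

theorem ind (hG : Group.IsNilpotent G) (n : ℕ) : ∀ S : Set Ω, S.ncard = n → (∀ (g : G), ∀ x ∈ S, g • x ∈ S) →
    (∀ x ∈ S, ∃ g : G, Odd (orderOf g) ∧ g • x ≠ x) → PP n (fixingSubgroup G S).index := by
  induction n using Nat.strong_induction_on with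
  | _ n ih =>
    intro S hn h1 h2
    rcases S.eq_empty_or_nonempty with rfl | ⟨x, hx⟩
    · simp only [Set.ncard_empty] at hn
      subst hn
      simp [PP, T]
    have hs : orbit G x ⊆ S := by rintro _ ⟨g, rfl⟩; exact h1 g x hx
    have h0 : (orbit G x).ncard ≠ 0 := Set.ncard_ne_zero_of_mem (mem_orbit_self x)
    have h3 := Set.ncard_sdiff_add_ncard_of_subset hs
    have h4 := ih _ (by omega) (S \ orbit G x) rfl (by
      rintro g y ⟨a, c⟩
      exact ⟨h1 g y a, fun e => c (by simpa using mapsTo_smul_orbit g⁻¹ x e)⟩) (fun y hy => h2 y hy.1)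
    have h5 := dvd_b index_ne_zero_of_finite (fun p hp => orb hG x hp)
    have h6 : ∀ i, (orbit G x).ncard ≠ 2 ^ i := fun i e => by
      obtain ⟨g, g1, g2⟩ := h2 x hx
      rw [e, b_pp Nat.prime_two] at h5
      haveI := fix_normal (G := G) (S := orbit G x) fun g y hy => mapsTo_smul_orbit g x hy
      obtain ⟨m, hm⟩ := exists_pow_eq_self_of_coprime (x := g) (n := (fixingSubgroup G (orbit G x)).index)
        (Nat.Coprime.coprime_dvd_left h5 (Nat.Coprime.pow_left _ (Nat.coprime_two_left.2 g1)))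
      have := pow_mem ((fixingSubgroup G (orbit G x)).pow_index_mem g) m
      rw [hm] at this
      exact g2 ((mem_fixingSubgroup_iff G).1 this x (mem_orbit_self x))
    have hb : 0 < b (orbit G x).ncard := Finset.prod_pos fun p hp => pow_pos (Nat.prime_of_mem_primeFactors hp).pos _
    have h7 : PP (orbit G x).ncard (fixingSubgroup G (orbit G x)).index :=
      PP.mono ⟨b_sq h0 h6, b_T h0 h6⟩ (Nat.le_of_dvd hb h5)
    have h8 := h7.mul h4 (by omega)
    rw [add_comm, h3, hn] at h8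
    refine h8.mono ?_
    conv_lhs => rw [← Set.union_sdiff_cancel hs, fixingSubgroup_union]
    exact index_inf_le

end

section
variable {α : Type*} [Fintype α] [DecidableEq α]
open Equiv

theorem main (N : Subgroup (Perm α)) (hN : Group.IsNilpotent N) : ∃ (A : Set α) (c : ℕ), PP A.ncard c ∧
    Nat.card N = c * Nat.card ↥(N ⊓ fixingSubgroup (Perm α) A) ∧ IsPGroup 2 ↥(N ⊓ fixingSubgroup (Perm α) A) ∧
    ∀ g ∈ N, Odd (orderOf g) → (g.support : Set α) ⊆ A := by
  let A : Set α := {x | ∃ g : N, Odd (orderOf g) ∧ g • x ≠ x}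
  have hA : ∀ g ∈ N, Odd (orderOf g) → (g.support : Set α) ⊆ A := fun g hg ho x hx =>
    ⟨⟨g, hg⟩, by rwa [Subgroup.orderOf_mk], by simpa using hx⟩
  refine ⟨A, _, ind hN _ A rfl ?_ (fun x hx => hx), ?_, ?_, hA⟩
  · rintro g x ⟨u, u1, u2⟩
    refine ⟨g * u * g⁻¹, ?_, ?_⟩
    · rwa [← MulAut.conj_apply, MulEquiv.orderOf_eq]
    · simpa [mul_smul] using u2
  · rw [← (fixingSubgroup N A).index_mul_card]
    congr 1
    rw [inf_comm, ← subgroupOf_map_subtype, card_map_of_injective N.subtype_injective]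
    rfl
  · rintro ⟨g, g1, g2⟩
    obtain ⟨u, v, e, ⟨k, hk⟩, hv, hz⟩ := dec g Nat.prime_two
    have : v = 1 := by
      ext x
      by_contra hx
      exact hx ((mem_fixingSubgroup_iff _).1 (zpowers_le.2 g2 hz) x
        (hA v (zpowers_le.2 g1 hz) (Nat.coprime_two_right.1 hv) (by simpa using hx)))
    refine ⟨k, Subtype.ext ?_⟩
    change g ^ 2 ^ k = 1
    rw [this, one_mul] at e
    rw [e, hk]

theorem card_fix (A : Set α) : Nat.card (fixingSubgroup (Perm α) A) = (Fintype.card α - A.ncard)! := by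
  classical
  have : fixingSubgroup (Perm α) A = (Perm.ofSubtype (p := fun x => x ∉ A)).range := by
    ext g
    rw [Perm.mem_range_ofSubtype_iff, mem_fixingSubgroup_iff]
    constructor
    · intro h x hx hA; exact (Perm.mem_support.1 hx) (h x hA)
    · intro h x hx; by_contra hn; exact h (Perm.mem_support.2 hn) hx
  rw [this, ← Nat.card_congr (MonoidHom.ofInjective Perm.ofSubtype_injective).toEquiv, Nat.card_perm]
  congr 1
  have := Set.ncard_add_ncard_compl A
  rw [Nat.card_eq_fintype_card] at this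
  rw [← this, Nat.add_sub_cancel_left]; rfl

theorem card_fixA (A : Set α) (h : A.ncard + 2 ≤ Fintype.card α) :
    2 * Nat.card ↥(alternatingGroup α ⊓ fixingSubgroup (Perm α) A) = (Fintype.card α - A.ncard)! := by
  rw [← card_fix, ← ((alternatingGroup α).subgroupOf (fixingSubgroup (Perm α) A)).index_mul_card,
    ← subgroupOf_map_subtype, card_map_of_injective (Subgroup.subtype_injective _)]
  congr 1
  have h1 := Set.ncard_add_ncard_compl A
  rw [Nat.card_eq_fintype_card] at h1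
  obtain ⟨x, y, hx, hy, hxy⟩ := (Set.one_lt_ncard_iff (s := Aᶜ)).1 (by omega)
  haveI : Nontrivial α := ⟨x, y, hxy⟩
  have h2 := relIndex_dvd_index_of_normal (alternatingGroup α) (fixingSubgroup (Perm α) A)
  rw [alternatingGroup.index_eq_two, Nat.dvd_prime Nat.prime_two] at h2
  refine (h2.resolve_left fun e => ?_).symm
  have := relIndex_eq_one.1 e (show swap x y ∈ _ from (mem_fixingSubgroup_iff _).2 fun z hz =>
    swap_apply_of_ne_of_ne (fun e => hx (e ▸ hz)) (fun e => hy (e ▸ hz)))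
  simp [hxy] at this

theorem le2 {K Y : Subgroup (Perm α)} (hK : IsPGroup 2 K) (h : K ≤ Y) : Nat.card K ≤ 2 ^ (Nat.card Y).factorization 2 := by
  obtain ⟨P, hP, h1⟩ := CfsgH1.exists_isSylowIn_ge hK h
  rw [← hP.card_eq]; exact card_le_of_le h1

theorem fA {x m : ℕ} (h : 2 * x = m !) : 2 * 2 ^ x.factorization 2 = f m := by
  have : x ≠ 0 := by rintro rfl; exact Nat.factorial_ne_zero _ h.symm
  rw [f, ← h, Nat.factorization_mul two_ne_zero this, Finsupp.add_apply, Nat.prime_two.factorization_self, pow_add, pow_one]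

theorem conj3 (X N₁ N₂ : Subgroup (Perm α)) (h1 : N₁ ≤ X) (h2 : N₂ ≤ X) (F : ℕ)
    (hX : ∀ s t : Perm α, s.IsThreeCycle → t.IsThreeCycle → ∃ g ∈ X, g * s * g⁻¹ = t)
    (hF : ∀ A : Set α, A.ncard = 3 → F = 2 ^ (Nat.card ↥(X ⊓ fixingSubgroup (Perm α) A)).factorization 2)
    (H : ∀ N : Subgroup (Perm α), (N = N₁ ∨ N = N₂) → Nat.card N = 3 * F ∧ ∃ (A : Set α) (c : ℕ), A.ncard = 3 ∧ c ≤ 3 ∧
      Nat.card N = c * Nat.card ↥(N ⊓ fixingSubgroup (Perm α) A) ∧ IsPGroup 2 ↥(N ⊓ fixingSubgroup (Perm α) A) ∧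
      ∀ g ∈ N, Odd (orderOf g) → (g.support : Set α) ⊆ A) : ∃ g ∈ X, N₂ = MulAut.conj g • N₁ := by
  haveI : Fact (Nat.Prime 3) := ⟨Nat.prime_three⟩
  have key : ∀ N : Subgroup (Perm α), (N = N₁ ∨ N = N₂) → ∃ (t : Perm α) (K : Subgroup (Perm α)), t.IsThreeCycle ∧
      CfsgH1.IsSylowIn 2 K (X ⊓ fixingSubgroup (Perm α) (t.support : Set α)) ∧ N = K ⊔ zpowers t := by
    intro N hN
    obtain ⟨a1, A, c, a2, a3, a4, a5, a6⟩ := H N hN
    have hX : N ≤ X := by rcases hN with rfl | rfl <;> assumption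
    obtain ⟨t, ht⟩ := exists_prime_orderOf_dvd_card' (G := N) 3 (a1 ▸ Dvd.intro _ rfl)
    rw [← Subgroup.orderOf_coe] at ht
    have b1 := a6 t t.2 (by rw [ht]; decide)
    have b2 : 3 ≤ (t : Perm α).support.card := by
      have := Perm.le_card_support_of_mem_cycleType (σ := (t : Perm α)) (n := 3) (by
        have := (Perm.cycleType_prime_order (σ := (t : Perm α)) (by rw [ht]; exact Nat.prime_three))
        obtain ⟨n, hn⟩ := this
        rw [hn, ht]; simp)
      exact this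
    have b3 : ((t : Perm α).support : Set α) = A := Set.eq_of_subset_of_ncard_le b1 (by rw [Set.ncard_coe_finset]; omega)
    have b4 : (t : Perm α).IsThreeCycle := card_support_eq_three_iff.1 (by rw [← Set.ncard_coe_finset, b3, a2])
    have b5 := le2 a5 (inf_le_inf_right _ hX)
    rw [← hF A a2] at b5
    have b6 : Nat.card ↥(N ⊓ fixingSubgroup (Perm α) A) = F := by nlinarith
    refine ⟨t, N ⊓ fixingSubgroup (Perm α) A, b4, ?_, ?_⟩
    · rw [b3]; exact CfsgH1.IsSylowIn.of_card (inf_le_inf_right _ hX) (b6.trans (hF A a2))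
    · symm
      apply eq_of_le_of_card_ge (sup_le inf_le_left (zpowers_le.2 t.2))
      rw [a1]
      apply Nat.le_of_dvd Nat.card_pos
      apply Nat.Coprime.mul_dvd_of_dvd_of_dvd
      · rw [hF A a2]; exact Nat.Coprime.pow_right _ (by norm_num)
      · rw [← ht, ← Nat.card_zpowers]; exact card_dvd_of_le le_sup_right
      · rw [← b6]; exact card_dvd_of_le le_sup_left
  obtain ⟨t1, K1, a1, a2, rfl⟩ := key N₁ (Or.inl rfl)
  obtain ⟨t2, K2, b1, b2, rfl⟩ := key N₂ (Or.inr rfl)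
  obtain ⟨g, hg, rfl⟩ := hX t1 t2 a1 b1
  have c1 : CfsgH1.IsSylowIn 2 (MulAut.conj g • K1) (X ⊓ fixingSubgroup (Perm α) ((g * t1 * g⁻¹).support : Set α)) := by
    refine b2.of_card_eq ?_ ?_
    · rintro _ ⟨k, hk, rfl⟩
      obtain ⟨k1, k2⟩ := a2.le hk
      refine ⟨X.mul_mem (X.mul_mem hg k1) (X.inv_mem hg), (mem_fixingSubgroup_iff _).2 fun y hy => ?_⟩
      have : k (g⁻¹ y) = g⁻¹ y := (mem_fixingSubgroup_iff _).1 k2 _ (by
        simp only [Finset.mem_coe, Perm.mem_support, Perm.mul_apply] at hy ⊢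
        intro e; apply hy; rw [e]; simp)
      change g (k (g⁻¹ y)) = y
      rw [this]; simp
    · rw [b2.card_eq, ← hF _ (by rw [Set.ncard_coe_finset, b1.card_support]),
        hF _ (by rw [Set.ncard_coe_finset, a1.card_support]), ← a2.card_eq]
      exact card_map_of_injective (MulAut.conj g).injective
  obtain ⟨h, hh, e⟩ := c1.exists_conj b2
  refine ⟨h * g, mul_mem hh.1 hg, ?_⟩
  rw [map_mul, mul_smul, smul_sup, smul_sup, e]
  congr 1
  have : h * (g * t1 * g⁻¹) * h⁻¹ = g * t1 * g⁻¹ := by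
    rw [mul_inv_eq_iff_eq_mul]
    apply Perm.Disjoint.commute
    intro x
    by_cases hx : (g * t1 * g⁻¹) x = x
    · exact Or.inr hx
    · exact Or.inl ((mem_fixingSubgroup_iff _).1 hh.2 x (Finset.mem_coe.2 (Perm.mem_support.2 hx)))
  conv_lhs => rw [← this]
  change _ = ((zpowers t1).map (MulAut.conj g).toMonoidHom).map (MulAut.conj h).toMonoidHom
  rw [MonoidHom.map_zpowers, MonoidHom.map_zpowers]
  rfl

end

end CfsgH8.Nilp
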