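import Cfsg.Agent.H8.Nilp

/-! Largest nilpotent subgroups of symmetric and alternating groups. -/

set_option autoImplicit false
open MulAction Subgroup Nat Pointwise Equiv

namespace CfsgH8.Nilp

theorem f_pos (n : ℕ) : 0 < f n := pow_pos two_pos _

theorem symS {n : ℕ} (N : Subgroup (Perm (Fin n))) (hN : Group.IsNilpotent N) : Nat.card N ≤ f n ∨
    (3 ≤ n ∧ Nat.card N ≤ 3 * f (n - 3) ∧ ∃ (A : Set (Fin n)) (c : ℕ), A.ncard = 3 ∧ c ≤ 3 ∧
      Nat.card N = c * Nat.card ↥(N ⊓ fixingSubgroup (Perm (Fin n)) A) ∧ IsPGroup 2 ↥(N ⊓ fixingSubgroup (Perm (Fin n)) A) ∧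
      ∀ g ∈ N, Odd (orderOf g) → (g.support : Set (Fin n)) ⊆ A) := by
  obtain ⟨A, c, h1, h2, h3, h4⟩ := main N hN
  have h5 := le2 h3 inf_le_right
  rw [card_fix, Fintype.card_fin] at h5
  change _ ≤ f _ at h5
  have h6 : A.ncard ≤ n := by simpa using Set.ncard_le_card A
  have h7 := f_add A.ncard (n - A.ncard)
  rw [Nat.add_sub_cancel' h6] at h7
  have key : c ≤ f A.ncard → Nat.card N ≤ f n := fun h => h2 ▸ (Nat.mul_le_mul h h5).trans h7
  rcases h1.cases with ⟨a, h⟩ | ⟨a, h⟩ | ⟨a, h⟩ | ⟨a, h⟩ | ⟨a, h⟩ | h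
  · exact Or.inl (key (h.trans (f_pos _)))
  · exact Or.inr ⟨a ▸ h6, h2 ▸ Nat.mul_le_mul h (a ▸ h5), A, c, a, h, h2, h3, h4⟩
  · have := le_f (n := 5) (k := 3) (by decide)
    exact Or.inl (key (by rw [a]; omega))
  · have := le_f (n := 6) (k := 4) (by decide)
    exact Or.inl (key (by rw [a]; omega))
  · have := le_f (n := 9) (k := 7) (by decide)
    exact Or.inl (key (by rw [a]; omega))
  · exact Or.inl (key (by omega))

theorem card_fix_le {n : ℕ} (N : Subgroup (Perm (Fin n))) (A : Set (Fin n)) (h : n ≤ A.ncard + 1) :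
    Nat.card ↥(N ⊓ fixingSubgroup (Perm (Fin n)) A) ≤ 1 := by
  have := card_le_of_le (inf_le_right : N ⊓ fixingSubgroup (Perm (Fin n)) A ≤ _)
  rw [card_fix, Fintype.card_fin] at this
  rcases (by omega : n - A.ncard = 0 ∨ n - A.ncard = 1) with e | e <;> simpa [e] using this

theorem altS {n : ℕ} (N : Subgroup (Perm (Fin n))) (hN : Group.IsNilpotent N) (hA : N ≤ alternatingGroup (Fin n))
    (h1 : 2 ≤ n) (h3 : n ≠ 3) (h5 : n ≠ 5) (h6 : n ≠ 6) (h9 : n ≠ 9) : 2 * Nat.card N ≤ f n ∨ (n = 7 ∧ Nat.card N ≤ 9) ∨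
    (5 ≤ n ∧ 2 * Nat.card N ≤ 3 * f (n - 3) ∧ ∃ (A : Set (Fin n)) (c : ℕ), A.ncard = 3 ∧ c ≤ 3 ∧
      Nat.card N = c * Nat.card ↥(N ⊓ fixingSubgroup (Perm (Fin n)) A) ∧ IsPGroup 2 ↥(N ⊓ fixingSubgroup (Perm (Fin n)) A) ∧
      ∀ g ∈ N, Odd (orderOf g) → (g.support : Set (Fin n)) ⊆ A) := by
  obtain ⟨A, c, a1, a2, a3, a4⟩ := main N hN
  have a6 : A.ncard ≤ n := by simpa using Set.ncard_le_card A
  have a7 := f_add A.ncard (n - A.ncard)
  rw [Nat.add_sub_cancel' a6] at a7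
  have f5 := le_f (n := 5) (k := 3) (by decide)
  have f6 := le_f (n := 6) (k := 4) (by decide)
  have f9 := le_f (n := 9) (k := 7) (by decide)
  by_cases hb : A.ncard + 2 ≤ n
  · have a5 := le2 a3 (inf_le_inf_right _ hA)
    have a8 := fA (card_fixA A (by simpa using hb))
    rw [Fintype.card_fin] at a8
    have a9 : 2 * Nat.card ↥(N ⊓ fixingSubgroup (Perm (Fin n)) A) ≤ f (n - A.ncard) := by omega
    have key : c ≤ f A.ncard → 2 * Nat.card N ≤ f n := fun h => by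
      rw [a2, mul_left_comm]; exact (Nat.mul_le_mul h a9).trans a7
    rcases a1.cases with ⟨a, h⟩ | ⟨a, h⟩ | ⟨a, h⟩ | ⟨a, h⟩ | ⟨a, h⟩ | h
    · exact Or.inl (key (h.trans (f_pos _)))
    · refine Or.inr (Or.inr ⟨by omega, ?_, A, c, a, h, a2, a3, a4⟩)
      rw [a2, mul_left_comm]; exact Nat.mul_le_mul h (a ▸ a9)
    · exact Or.inl (key (by rw [a]; omega))
    · exact Or.inl (key (by rw [a]; omega))
    · exact Or.inl (key (by rw [a]; omega))
    · exact Or.inl (key (by omega))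
  · have a5 := card_fix_le N A (by omega)
    have a8 : Nat.card N ≤ c := by rw [a2]; simpa using Nat.mul_le_mul_left c a5
    rcases a1.cases with ⟨a, h⟩ | ⟨a, h⟩ | ⟨a, h⟩ | ⟨a, h⟩ | ⟨a, h⟩ | h
    · omega
    · obtain rfl : n = 4 := by omega
      have := le_f (n := 4) (k := 3) (by decide)
      omega
    · omega
    · omega
    · obtain rfl : n = 10 := by omega
      have := le_f (n := 10) (k := 8) (by decide)
      omega
    · have := f_pos (n - A.ncard)
      exact Or.inl (by nlinarith)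

theorem sylS {n : ℕ} (P : Sylow 2 (Perm (Fin n))) : Nat.card P = f n := by
  rw [P.card_eq_multiplicity, Nat.card_perm, Nat.card_fin, f]

theorem sylA {n : ℕ} (h : 2 ≤ n) (P : Sylow 2 (alternatingGroup (Fin n))) : 2 * Nat.card P = f n := by
  haveI : Nontrivial (Fin n) := Fin.nontrivial_iff_two_le.2 h
  rw [P.card_eq_multiplicity]
  apply fA
  rw [two_mul_nat_card_alternatingGroup, Nat.card_perm, Nat.card_fin]

theorem exM {n : ℕ} (h : 3 ≤ n) : ∃ ψ : Perm (Fin (n - 3)) × Multiplicative (ZMod 3) →* Perm (Fin n), Function.Injective ψ ∧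
    ∀ x, Perm.sign (ψ x) = Perm.sign x.1 := by
  let e : Fin (n - 3) ⊕ Multiplicative (ZMod 3) ≃ Fin n := Fintype.equivFinOfCardEq (by simp; omega)
  refine ⟨(e.permCongrHom.toMonoidHom.comp (Perm.sumCongrHom _ _)).comp
    (MonoidHom.prodMap (MonoidHom.id _) (toPermHom _ (Multiplicative (ZMod 3)))), ?_, fun x => ?_⟩
  · exact e.permCongrHom.injective.comp (Perm.sumCongrHom_injective.comp (Function.injective_id.prodMap toPerm_injective))
  · have : ∀ y : Multiplicative (ZMod 3), Perm.sign (toPerm y : Perm (Multiplicative (ZMod 3))) = 1 := by decide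
    simp [Perm.sign_sumCongr, this]

end CfsgH8.Nilp
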