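import Mathlib
import Cfsg.Agent.H8.Multi

set_option autoImplicit false

namespace CfsgH8

open MulAction Polynomial

section
variable {p : ℕ} [Fact p.Prime] {K : Type*} [Field K] [CharP K p]

/-- translation of functions on `ZMod p` -/
noncomputable def shiftFun (p : ℕ) (K : Type*) [Field K] : Module.End K (ZMod p → K) :=
  LinearMap.funLeft K K (fun j => j - 1)

theorem shiftFun_pow (n : ℕ) (f : ZMod p → K) (j : ZMod p) :
    (shiftFun p K ^ n) f j = f (j - n) := by
  induction n generalizing j with
  | zero => simp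
  | succ n ih =>
    rw [pow_succ', Module.End.mul_apply]
    show (shiftFun p K ^ n) f (j - 1) = _
    rw [ih]; congr 1; push_cast; ring

theorem shiftFun_sub_one_pow : (shiftFun p K - 1) ^ p = 0 := by
  have : CharP (Module.End K (ZMod p → K)) p := charP_of_injective_algebraMap' K p
  rw [sub_pow_char_of_commute _ (Commute.one_right _), one_pow, sub_eq_zero]
  ext f j
  simp [shiftFun_pow]

theorem finrank_ker_shift_pow (r : ℕ) :
    Module.finrank K (LinearMap.ker ((shiftFun p K - 1) ^ r)) ≤ r := by
  induction r with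
  | zero => simp [Module.End.one_eq_id]
  | succ r ih =>
    let φ : LinearMap.ker ((shiftFun p K - 1) ^ (r + 1)) →ₗ[K]
        LinearMap.ker ((shiftFun p K - 1) ^ r) × K :=
      LinearMap.prod (((shiftFun p K - 1) ∘ₗ (Submodule.subtype _)).codRestrict _ fun v => by
        obtain ⟨v, hv⟩ := v
        rwa [LinearMap.mem_ker, pow_succ, Module.End.mul_apply] at hv)
        ((LinearMap.proj 0) ∘ₗ (Submodule.subtype _))
    have hφ : Function.Injective φ := by
      rw [injective_iff_map_eq_zero]
      intro v hv
      have h1 : (shiftFun p K - 1) v = 0 := congrArg (fun x => (x.1 : ZMod p → K)) hv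
      have h2 : (v : ZMod p → K) 0 = 0 := congrArg Prod.snd hv
      have h3 : ∀ n : ℕ, (v : ZMod p → K) n = 0 := by
        intro n
        induction n with
        | zero => simpa using h2
        | succ n ih =>
          have := congrFun h1 ((n + 1 : ℕ) : ZMod p)
          simp only [LinearMap.sub_apply, Module.End.one_apply, Pi.sub_apply, Pi.zero_apply,
            sub_eq_zero] at this
          rw [← this, ← ih]
          show (v : ZMod p → K) _ = _
          congr 1; push_cast; ring
      ext j
      simpa using h3 j.val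
    have := LinearMap.finrank_le_finrank_of_injective hφ
    rw [Module.finrank_prod, Module.finrank_self] at this
    omega

theorem eq_ker_of_shift_invariant (W : Submodule K (ZMod p → K))
    (hW : ∀ f ∈ W, (fun j => f (j - 1)) ∈ W) :
    W = LinearMap.ker ((shiftFun p K - 1) ^ Module.finrank K W) := by
  refine Submodule.eq_of_le_of_finrank_le (fun v hv => ?_) (finrank_ker_shift_pow _)
  have hD : ∀ x ∈ W, (shiftFun p K - 1) x ∈ W := fun x hx => W.sub_mem (hW x hx) hx
  have h1 := Module.End.ker_pow_le_ker_pow_finrank ((shiftFun p K - 1).restrict hD) p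
    (x := ⟨v, hv⟩) (by
      rw [LinearMap.mem_ker, Module.End.pow_restrict]
      apply Subtype.ext
      simp [LinearMap.restrict_apply, shiftFun_sub_one_pow])
  rw [LinearMap.mem_ker, Module.End.pow_restrict] at h1
  exact congrArg Subtype.val h1

theorem cast_zmod_injective : Function.Injective (fun j : ZMod p => (ZMod.cast j : K)) :=
  (ZMod.castHom (dvd_refl p) K).injective

theorem poly_eq_zero_of_eval_zmod {P : K[X]} (hP : P.degree < p)
    (h : ∀ j : ZMod p, P.eval (ZMod.cast j : K) = 0) : P = 0 := by
  by_cases h0 : P = 0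
  · exact h0
  refine eq_zero_of_natDegree_lt_card_of_eval_eq_zero P cast_zmod_injective h ?_
  rw [ZMod.card]
  exact (natDegree_lt_iff_degree_lt h0).mpr hP

theorem shift_invariant_eq_poly (W : Submodule K (ZMod p → K))
    (hW : ∀ f ∈ W, (fun j => f (j - 1)) ∈ W) :
    Module.finrank K W ≤ p ∧ ∀ f : ZMod p → K, f ∈ W ↔ ∃ P : K[X],
      P.degree < Module.finrank K W ∧ ∀ j : ZMod p, f j = P.eval (ZMod.cast j : K) := by
  have hr : Module.finrank K W ≤ p := by
    have := W.finrank_le
    rwa [Module.finrank_fintype_fun_eq_card, ZMod.card] at this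
  refine ⟨hr, ?_⟩
  set r := Module.finrank K W with hrdef
  let ev : degreeLT K r →ₗ[K] (ZMod p → K) :=
    (LinearMap.pi fun j : ZMod p => Polynomial.leval (ZMod.cast j : K)) ∘ₗ (degreeLT K r).subtype
  have hev : Function.Injective ev := by
    rw [injective_iff_map_eq_zero]
    intro P hP
    apply Subtype.ext
    exact poly_eq_zero_of_eval_zmod ((mem_degreeLT.mp P.2).trans_le (by exact_mod_cast hr))
      (fun j => congrFun hP j)
  have hrk : Module.finrank K (LinearMap.range ev) = r := by
    rw [LinearMap.finrank_range_of_inj hev, (degreeLTEquiv K r).finrank_eq]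
    simp
  have h2 := eq_ker_of_shift_invariant (LinearMap.range ev) (by
    rintro _ ⟨P, rfl⟩
    refine ⟨⟨taylor (-1) (P : K[X]), ?_⟩, ?_⟩
    · rw [mem_degreeLT, degree_taylor]; exact mem_degreeLT.mp P.2
    · ext j
      show (taylor (-1) (P : K[X])).eval (ZMod.cast j : K) = (P : K[X]).eval (ZMod.cast (j - 1) : K)
      rw [taylor_eval, ZMod.cast_sub (dvd_refl p), ZMod.cast_one (dvd_refl p), sub_eq_add_neg])
  rw [hrk, ← eq_ker_of_shift_invariant W hW] at h2
  intro f
  rw [← h2]
  constructor
  · rintro ⟨P, rfl⟩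
    exact ⟨P, mem_degreeLT.mp P.2, fun j => rfl⟩
  · rintro ⟨P, hP, h⟩
    exact ⟨⟨P, mem_degreeLT.mpr hP⟩, funext fun j => (h j).symm⟩

end

/-- coordinates for a transitive group of prime degree. -/
theorem exists_coord_of_prime_degree {G α : Type*} [Group G] [Finite G] [MulAction G α]
    [Fintype α] [IsPretransitive G α] [FaithfulSMul G α] {p : ℕ} [Fact p.Prime]
    (hα : Fintype.card α = p) {σ : G} (hσ : orderOf σ = p) :
    ∃ e : α ≃ ZMod p, ∀ x, e (σ • x) = e x + 1 := by
  have hp : p.Prime := Fact.out
  have hσ1 : σ ≠ 1 := by rintro rfl; rw [orderOf_one] at hσ; exact hp.one_lt.ne hσ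
  obtain ⟨a, ha⟩ : ∃ a : α, σ • a ≠ a := by
    by_contra h
    push Not at h
    exact hσ1 (eq_of_smul_eq_smul (α := α) fun x => by rw [h x, one_smul])
  have hper : period σ a = p := by
    have h1 : period σ a ∣ p := hσ ▸ period_dvd_orderOf σ a
    refine ((Nat.dvd_prime hp).mp h1).resolve_left fun h => ha ?_
    have := pow_period_smul σ a
    rwa [h, pow_one] at this
  have hinj : Function.Injective fun j : ZMod p => σ ^ j.val • a := by
    intro i j h
    simp only at h
    have h2 := Function.iterate_injOn_Iio_minimalPeriod (f := fun x => σ • x) (x := a)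
      (x₁ := i.val) (x₂ := j.val) (by rw [← period_eq_minimalPeriod, hper]; exact ZMod.val_lt i)
      (by rw [← period_eq_minimalPeriod, hper]; exact ZMod.val_lt j) (by simpa [smul_iterate] using h)
    exact ZMod.val_injective p h2
  have hbij := (Fintype.bijective_iff_injective_and_card _).mpr ⟨hinj, by rw [ZMod.card, hα]⟩
  refine ⟨(Equiv.ofBijective _ hbij).symm, fun x => ?_⟩
  obtain ⟨j, rfl⟩ := hbij.2 x
  rw [Equiv.symm_apply_eq, Equiv.ofBijective_symm_apply_apply]
  simp only [Equiv.ofBijective_apply]
  rw [← mul_smul, ← pow_succ', ZMod.val_add, ZMod.val_one]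
  have := pow_mod_orderOf σ (j.val + 1)
  rw [hσ] at this
  rw [this]

theorem exists_orderOf_eq_of_prime_degree {G α : Type*} [Group G] [Finite G] [MulAction G α]
    [Fintype α] [IsPretransitive G α] {p : ℕ} [Fact p.Prime]
    (hα : Fintype.card α = p) : ∃ σ : G, orderOf σ = p := by
  have hp : p.Prime := Fact.out
  obtain ⟨a⟩ : Nonempty α := Fintype.card_pos_iff.mp (hα ▸ hp.pos)
  apply exists_prime_orderOf_dvd_card'
  rw [card_eq_mul_stabilizer a, Nat.card_eq_fintype_card, hα]
  exact Dvd.intro _ rfl

end CfsgH8
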