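import Mathlib
import Cfsg.Agent.H8.PrimeDegree
import Cfsg.Agent.H8.PermModule
import Cfsg.Agent.S0671

set_option autoImplicit false

namespace CfsgH8

open MulAction Polynomial

section
variable {G α K : Type*} [Group G] [MulAction G α] [Field K] {p : ℕ} [Fact p.Prime] [CharP K p]

theorem poly_of_invariant (e : α ≃ ZMod p) {σ : G} (hσ : ∀ x, e (σ • x) = e x + 1)
    (W : Submodule K (α → K)) (hW : ∀ g : G, ∀ f ∈ W, (fun x => f (g • x)) ∈ W) (f : α → K) :
    f ∈ W ↔ ∃ P : K[X], P.degree < Module.finrank K W ∧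
      ∀ x, f x = P.eval (ZMod.cast (e x) : K) := by
  let L : (α → K) ≃ₗ[K] (ZMod p → K) := LinearEquiv.funCongrLeft K K e.symm
  have h := (shift_invariant_eq_poly (W.map L.toLinearMap) (by
    rintro _ ⟨f, hf, rfl⟩
    refine ⟨_, hW σ⁻¹ f hf, ?_⟩
    ext j
    show f (σ⁻¹ • e.symm j) = f (e.symm (j - 1))
    congr 1
    rw [inv_smul_eq_iff]
    apply e.injective
    simp [hσ])).2 (L f)
  rw [LinearEquiv.finrank_map_eq] at h
  have h2 : L f ∈ W.map L.toLinearMap ↔ f ∈ W :=
    ⟨fun ⟨g, hg, h⟩ => L.injective h ▸ hg, fun h => ⟨f, h, rfl⟩⟩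
  rw [← h2, h]
  refine exists_congr fun P => and_congr_right fun _ => ⟨fun h x => ?_, fun h j => ?_⟩
  · simpa [L] using h (e x)
  · simpa [L] using h (e.symm j)

theorem affine_of_invariant (e : α ≃ ZMod p) {σ : G} (hσ : ∀ x, e (σ • x) = e x + 1)
    (W : Submodule K (α → K)) (hW : ∀ g : G, ∀ f ∈ W, (fun x => f (g • x)) ∈ W)
    (h2 : 2 ≤ Module.finrank K W) (h3 : 2 * (Module.finrank K W - 1) < p) (g : G) :
    ∃ a b : K, ∀ x, (ZMod.cast (e (g • x)) : K) = a * ZMod.cast (e x) + b := by
  have hp := poly_of_invariant e hσ W hW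
  set r := Module.finrank K W
  have hpow : ∀ j < r, ∃ P : K[X], P.degree < r ∧
      ∀ x, (ZMod.cast (e (g • x)) : K) ^ j = P.eval (ZMod.cast (e x) : K) := by
    intro j hj
    refine (hp _).mp (hW g (fun x => (ZMod.cast (e x) : K) ^ j) ((hp _).mpr ⟨X ^ j, ?_, by simp⟩))
    rw [degree_X_pow]; exact_mod_cast hj
  obtain ⟨Q, hQ, hQ'⟩ := hpow 1 (by omega)
  simp only [pow_one] at hQ'
  by_cases hd : Q.natDegree ≤ 1
  · refine ⟨Q.coeff 1, Q.coeff 0, fun x => ?_⟩
    rw [hQ']
    conv_lhs => rw [eq_X_add_C_of_natDegree_le_one hd]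
    simp
  exfalso
  have hQ0 : Q ≠ 0 := by rintro rfl; simp at hd
  have hdr : Q.natDegree < r := (natDegree_lt_iff_degree_lt hQ0).mpr hQ
  set d := Q.natDegree
  have h4 := Nat.div_add_mod (r - 1) d
  have h5 := Nat.mod_lt (r - 1) (show d > 0 by omega)
  have h6 : 2 * ((r - 1) / d) ≤ d * ((r - 1) / d) := Nat.mul_le_mul_right _ (by omega)
  obtain ⟨R, hR, hR'⟩ := hpow ((r - 1) / d + 1) (by omega)
  have hdeg : (Q ^ ((r - 1) / d + 1)).natDegree = d * ((r - 1) / d) + d := by
    rw [natDegree_pow]; ring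
  have hRd : R.natDegree ≤ r - 1 := by
    by_cases h0 : R = 0
    · simp [h0]
    · have := (natDegree_lt_iff_degree_lt h0).mpr hR
      omega
  have : Q ^ ((r - 1) / d + 1) - R = 0 := by
    apply poly_eq_zero_of_eval_zmod (p := p)
    · refine lt_of_le_of_lt degree_le_natDegree ?_
      have := natDegree_sub_le (Q ^ ((r - 1) / d + 1)) R
      exact_mod_cast (by omega : (Q ^ ((r - 1) / d + 1) - R).natDegree < p)
    · intro j
      have h7 := hR' (e.symm j)
      rw [hQ'] at h7
      simpa [sub_eq_zero] using h7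
  rw [sub_eq_zero] at this
  rw [this] at hdeg
  omega

theorem isSolvable_of_affine [FaithfulSMul G α] [Nontrivial α] {K : Type*} [Field K] (ι : α → K)
    (hι : Function.Injective ι) (h : ∀ g : G, ∃ a b : K, ∀ x, ι (g • x) = a * ι x + b) :
    Group.IsSolvable G := by
  choose a b hab using h
  obtain ⟨x, y, hxy⟩ := exists_pair_ne α
  have hne : ι x - ι y ≠ 0 := sub_ne_zero.mpr (hι.ne hxy)
  have hdiff : ∀ (g : G) u v, ι (g • u) - ι (g • v) = a g * (ι u - ι v) := fun g u v => by
    rw [hab, hab]; ring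
  let φ₀ : G →* K :=
    { toFun := a
      map_one' := by
        have := hdiff 1 x y
        simp only [one_smul] at this
        exact (mul_right_cancel₀ hne (by rw [← this, one_mul])).symm
      map_mul' := fun g h => by
        apply mul_right_cancel₀ hne
        rw [← hdiff, mul_smul, mul_smul, hdiff, hdiff, mul_assoc] }
  let φ : G →* Kˣ := φ₀.toHomUnits
  have : Group.IsSolvable φ.ker := Group.isSolvable_of_comm fun g h => by
    have hg : a g = 1 := congrArg Units.val g.2
    have hh : a h = 1 := congrArg Units.val h.2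
    apply Subtype.ext
    apply eq_of_smul_eq_smul (α := α)
    intro z
    apply hι
    simp only [Subgroup.coe_mul, mul_smul, hab, hg, hh]
    ring
  exact Group.isSolvable_of_ker_le_range φ.ker.subtype φ (by simp)

theorem heart_irreducible_or_affine [Fintype α] [Finite G] [IsPretransitive G α]
    (e : α ≃ ZMod p) {σ : G} (hσ : ∀ x, e (σ • x) = e x + 1) :
    (∀ g : G, ∃ a b : K, ∀ x, (ZMod.cast (e (g • x)) : K) = a * ZMod.cast (e x) + b) ∨
    ∀ W : Subrepresentation (Cfsg.permRep K G α),
      (Cfsg.permConstants K G α).toSubmodule ≤ W.toSubmodule →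
      W.toSubmodule ≤ (Cfsg.permSumZero K G α).toSubmodule →
      W = Cfsg.permConstants K G α ∨ W = Cfsg.permSumZero K G α := by
  rw [or_iff_not_imp_left]
  intro hn W h1 h2
  have hα : Fintype.card α = p := by rw [Fintype.card_congr e, ZMod.card]
  have : Nonempty α := ⟨e.symm 0⟩
  have hC : Module.finrank K (Cfsg.permConstants K G α).toSubmodule = 1 :=
    finrank_span_singleton fun h => one_ne_zero (congrFun h (e.symm 0))
  have hS := finrank_permSumZero (G := G) (α := α) (K := K)
  by_contra hc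
  push Not at hc
  have h3 := Submodule.finrank_lt_finrank_of_lt
    (lt_of_le_of_ne h1 fun h => hc.1 (Subrepresentation.toSubmodule_injective h.symm))
  have h4 := Submodule.finrank_lt_finrank_of_lt
    (lt_of_le_of_ne h2 fun h => hc.2 (Subrepresentation.toSubmodule_injective h))
  obtain ⟨W', h5, h6⟩ := exists_perp W.toSubmodule
  by_cases h7 : 2 * (Module.finrank K W.toSubmodule - 1) < p
  · exact hn (affine_of_invariant e hσ _ (subrep_invariant W) (by omega) h7)
  · exact hn (affine_of_invariant e hσ W' (perp_invariant h6 (subrep_invariant W)) (by omega)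
      (by omega))

theorem perm_zmod_two_affine :
    ∀ f : Equiv.Perm (ZMod 2), ∃ a b : ZMod 2, ∀ x, f x = a * x + b := by decide

theorem perm_zmod_three_affine :
    ∀ f : Equiv.Perm (ZMod 3), ∃ a b : ZMod 3, ∀ x, f x = a * x + b := by decide

/-- Burnside: a transitive group of prime degree is affine or doubly transitive. -/
theorem affine_or_two_transitive [Fintype α] [Finite G] [IsPretransitive G α]
    (e : α ≃ ZMod p) {σ : G} (hσ : ∀ x, e (σ • x) = e x + 1) :
    (∀ g : G, ∃ a b : ZMod p, ∀ x, e (g • x) = a * e x + b) ∨ IsMultiplyPretransitive G α 2 := by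
  classical
  have hp : p.Prime := Fact.out
  have hα : Fintype.card α = p := by rw [Fintype.card_congr e, ZMod.card]
  by_cases h5 : p < 5
  · left
    intro g
    have key : ∀ f : Equiv.Perm (ZMod p), ∃ a b : ZMod p, ∀ x, f x = a * x + b := by
      have h2 := hp.two_le
      have h4 : p ≠ 4 := by rintro rfl; exact absurd hp (by decide)
      rcases (show p = 2 ∨ p = 3 by omega) with rfl | rfl
      · exact perm_zmod_two_affine
      · exact perm_zmod_three_affine
    obtain ⟨a, b, h⟩ := key (e.symm.trans ((MulAction.toPerm g).trans e))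
    exact ⟨a, b, fun x => by simpa using h (e x)⟩
  rcases heart_irreducible_or_affine (K := ZMod p) e hσ with h | h
  · left
    simpa using h
  right
  refine Cfsg.Agent.S0671.result (K := ZMod p) (p := p) (f := 1) le_rfl (by rw [hα, pow_one])
    fun W W' h1 h2 h3 => ?_
  have hW : W = Cfsg.permConstants (ZMod p) G α := (h W h1 (h2.le.trans h3)).resolve_right
    fun e => by rw [e] at h2; exact h2.not_ge h3
  have hW' : W' = Cfsg.permSumZero (ZMod p) G α := (h W' (h1.trans h2.le) h3).resolve_left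
    fun e => by rw [e] at h2; exact h2.not_ge h1
  subst hW hW'
  have hex : ∀ s : Finset α, s.card < 5 → ∃ x, x ∉ s := fun s hs => by
    obtain ⟨x, -, hx⟩ := Finset.exists_mem_notMem_of_card_lt_card (s := s) (t := Finset.univ)
      (by rw [Finset.card_univ]; omega)
    exact ⟨x, hx⟩
  set a := e.symm 0
  have ha : σ⁻¹ • a ≠ a := fun h => by
    rw [inv_smul_eq_iff] at h
    have := hσ a
    rw [← h] at this
    simp at this
  obtain ⟨b, hb⟩ := hex {a, σ⁻¹ • a} (Finset.card_le_two.trans_lt (by norm_num))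
  obtain ⟨c, hc⟩ := hex {a, b, σ • a, σ • b} (Finset.card_le_four.trans_lt (by norm_num))
  simp only [Finset.mem_insert, Finset.mem_singleton, not_or] at hb hc
  refine ⟨σ, Pi.single a 1 - Pi.single b 1, ?_, fun hm => ?_⟩
  · show ∑ x, (Pi.single a 1 - Pi.single b 1 : α → ZMod p) x = 0
    simp [Finset.sum_sub_distrib]
  · obtain ⟨t, ht⟩ := Submodule.mem_span_singleton.mp hm
    have h1 := congrFun ht a
    have h2 := congrFun ht c
    have n1 : σ⁻¹ • c ≠ a := fun h => hc.2.2.1 (inv_smul_eq_iff.mp h)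
    have n2 : σ⁻¹ • c ≠ b := fun h => hc.2.2.2 (inv_smul_eq_iff.mp h)
    simp [Cfsg.permRep, ha, Ne.symm hb.1, Ne.symm hb.2, hc.1, hc.2.1, n1, n2] at h1 h2
    rw [h2] at h1
    simp at h1

end

end CfsgH8
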