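import Mathlib

/-! The Schur-Wielandt theorem: abelian groups with a cyclic Sylow subgroup are B-groups. -/

set_option autoImplicit false

namespace CfsgH8

open Finset
open scoped Pointwise

variable {H : Type*} [CommGroup H]

/-- The orbit relation of the stabiliser of `1`. -/
def SR (Γ : Subgroup (Equiv.Perm H)) (a b : H) : Prop := ∃ π ∈ Γ, π 1 = 1 ∧ π a = b

variable {Γ : Subgroup (Equiv.Perm H)}

theorem SR.refl (a : H) : SR Γ a a := ⟨1, one_mem _, rfl, rfl⟩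

theorem SR.symm {a b : H} (h : SR Γ a b) : SR Γ b a := by
  obtain ⟨π, h1, h2, h3⟩ := h
  exact ⟨π⁻¹, inv_mem h1, by rw [Equiv.Perm.inv_eq_iff_eq, h2], by rw [Equiv.Perm.inv_eq_iff_eq, h3]⟩

theorem SR.trans {a b c : H} (h : SR Γ a b) (h' : SR Γ b c) : SR Γ a c := by
  obtain ⟨π, h1, h2, h3⟩ := h
  obtain ⟨ρ, k1, k2, k3⟩ := h'
  exact ⟨ρ * π, mul_mem k1 h1, by simp [h2, k2], by simp [h3, k3]⟩

theorem SR.eq_one {b : H} (h : SR Γ 1 b) : b = 1 := by
  obtain ⟨π, -, h2, h3⟩ := h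
  rw [← h3, h2]

theorem SR.key (hΓ : ∀ h, Equiv.mulLeft h ∈ Γ) {π : Equiv.Perm H} (hπ : π ∈ Γ) (a b : H) :
    SR Γ (a⁻¹ * b) ((π a)⁻¹ * π b) :=
  ⟨Equiv.mulLeft (π a)⁻¹ * π * Equiv.mulLeft a, mul_mem (mul_mem (hΓ _) hπ) (hΓ _), by simp, by simp⟩

theorem SR.closure (hΓ : ∀ h, Equiv.mulLeft h ∈ Γ) {A : Set H} (hA : ∀ a ∈ A, ∀ b, SR Γ a b → b ∈ A) :
    ∀ a ∈ Subgroup.closure A, ∀ b, SR Γ a b → b ∈ Subgroup.closure A := by
  intro a ha
  induction ha using Subgroup.closure_induction with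
  | mem x hx => exact fun b hb => Subgroup.subset_closure (hA x hx b hb)
  | one => exact fun b hb => hb.eq_one ▸ one_mem _
  | mul x y _ _ ihx ihy =>
    rintro b ⟨π, h1, h2, rfl⟩
    have h3 := SR.key hΓ h1 x (x * y)
    rw [inv_mul_cancel_left] at h3
    simpa using mul_mem (ihx _ ⟨π, h1, h2, rfl⟩) (ihy _ h3)
  | inv x _ ih =>
    rintro b ⟨π, h1, h2, rfl⟩
    have h3 := SR.key hΓ h1 x⁻¹ 1
    rw [inv_inv, mul_one, h2, mul_one] at h3
    simpa using ih _ h3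

theorem SR.stab [DecidableEq H] (hΓ : ∀ h, Equiv.mulLeft h ∈ Γ) {T : Finset H} (hT : ∀ a ∈ T, ∀ b, SR Γ a b → b ∈ T) :
    ∀ a ∈ MulAction.stabilizer H T, ∀ b, SR Γ a b → b ∈ MulAction.stabilizer H T := by
  rintro u hu _ ⟨π, h1, h2, rfl⟩
  rw [MulAction.mem_stabilizer_finset'] at hu ⊢
  intro a ha
  have h3 := SR.key hΓ h1 u (π⁻¹ (π u * a))
  rw [show π (π⁻¹ (π u * a)) = π u * a by simp, inv_mul_cancel_left] at h3
  have h4 := hu (hT _ ha _ h3.symm)
  rw [smul_eq_mul, mul_inv_cancel_left] at h4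
  exact hT _ h4 _ ⟨π, h1, h2, by simp⟩

variable [Fintype H] [DecidableEq H]

theorem dvd_card_of_inv {p : ℕ} (hE : #{e : H | e ^ p = 1} = p) (S : Finset H)
    (hS : ∀ s ∈ S, ∀ e, e ^ p = 1 → s * e ∈ S) : p ∣ #S := by
  have h1 : Nat.card (powMonoidHom p : H →* H).ker = p := by
    rw [Nat.card_eq_fintype_card, Fintype.card_subtype]
    refine Eq.trans ?_ hE
    congr 1
    ext x
    simp
  have h2 : (S : Set H) = QuotientGroup.mk ⁻¹' ((QuotientGroup.mk : H → H ⧸ (powMonoidHom p : H →* H).ker) '' S) := by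
    ext x
    constructor
    · exact fun hx => ⟨x, hx, rfl⟩
    · rintro ⟨s, hs, h⟩
      simpa using hS s hs _ (QuotientGroup.eq.1 h)
  have h3 := QuotientGroup.card_preimage_mk (powMonoidHom p : H →* H).ker
    ((QuotientGroup.mk : H → H ⧸ (powMonoidHom p : H →* H).ker) '' S)
  rw [← h2, h1] at h3
  exact ⟨_, by rw [← h3]; simp⟩

theorem SR.inv_mul (hΓ : ∀ h, Equiv.mulLeft h ∈ Γ) {R : Type*} [Semiring R] {f g : MonoidAlgebra R H}
    (hf : ∀ a b, SR Γ a b → f.coeff a = f.coeff b) (hg : ∀ a b, SR Γ a b → g.coeff a = g.coeff b) :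
    ∀ a b, SR Γ a b → (f * g).coeff a = (f * g).coeff b := by
  rintro a _ ⟨π, h1, h2, rfl⟩
  rw [MonoidAlgebra.coeff_mul_apply_left, MonoidAlgebra.coeff_mul_apply_left, Finsupp.sum_fintype _ _ (by simp),
    Finsupp.sum_fintype _ _ (by simp)]
  refine Fintype.sum_equiv π _ _ fun x => ?_
  rw [hf x (π x) ⟨π, h1, h2, rfl⟩, hg _ _ (SR.key hΓ h1 x a)]

theorem schur_step1 (hΓ : ∀ h, Equiv.mulLeft h ∈ Γ) {p : ℕ} (hp : p.Prime) (hE : #{e : H | e ^ p = 1} = p)
    (hprim : ∀ U : Subgroup H, (∀ a ∈ U, ∀ b, SR Γ a b → b ∈ U) → U = ⊥ ∨ U = ⊤)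
    {T : Finset H} (hT : ∀ a ∈ T, ∀ b, SR Γ a b → b ∈ T) {s : H} (hs : s ∈ T) (hsp : s ^ p ≠ 1) {e : H}
    (he : e ^ p = 1) : s * e ∈ T := by
  haveI := Fact.mk hp
  haveI : CharP (MonoidAlgebra (ZMod p) H) p :=
    charP_of_injective_algebraMap (R := ZMod p) (fun x y h => by
      simpa using congrArg (fun f : MonoidAlgebra (ZMod p) H => f.coeff 1) h) p
  let f : MonoidAlgebra (ZMod p) H := ∑ s ∈ T, MonoidAlgebra.single s 1
  have hf : ∀ a b, SR Γ a b → f.coeff a = f.coeff b := by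
    have : ∀ a, f.coeff a = if a ∈ T then 1 else 0 := fun a => by
      simp [f, Finsupp.single_apply]
    intro a b hab
    rw [this, this]
    exact if_congr ⟨fun h => hT _ h _ hab, fun h => hT _ h _ hab.symm⟩ rfl rfl
  have hfn : ∀ n a b, SR Γ a b → (f ^ (n + 1)).coeff a = (f ^ (n + 1)).coeff b := by
    intro n
    induction n with
    | zero => simpa using hf
    | succ n ih => rw [pow_succ]; exact SR.inv_mul hΓ ih hf
  have hfp : ∀ h, (f ^ p).coeff h = (#{s ∈ T | s ^ p = h} : ℕ) := fun h => by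
    simp only [f, sum_pow_char, MonoidAlgebra.single_pow, one_pow]
    simp [Finsupp.single_apply]
  have hA := SR.closure hΓ (A := {h | (f ^ p).coeff h ≠ 0}) fun a ha b hab => by
    have := hfn (p - 1) a b hab
    rw [Nat.sub_add_cancel hp.one_le] at this
    exact fun h => ha (this.trans h)
  have h0 : (f ^ p).coeff (s ^ p) = 0 := by
    by_contra h0
    rcases hprim _ hA with h | h
    · exact hsp (Subgroup.mem_bot.1 (h ▸ Subgroup.subset_closure h0))
    · have h1 : (powMonoidHom p : H →* H).range = ⊤ := by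
        rw [eq_top_iff, ← h, Subgroup.closure_le]
        intro x hx
        have hx : (f ^ p).coeff x ≠ 0 := hx
        rw [hfp] at hx
        obtain ⟨y, hy⟩ := card_pos.1 (Nat.pos_of_ne_zero fun h => hx (by rw [h]; simp))
        exact ⟨y, (mem_filter.1 hy).2⟩
      have h2 := Finite.injective_iff_surjective.2 (MonoidHom.range_eq_top.1 h1)
      have h3 : ({e : H | e ^ p = 1} : Finset H) ⊆ {1} := fun x hx => by
        simpa using (injective_iff_map_eq_one _).1 h2 x (mem_filter.1 hx).2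
      have h4 := card_le_card h3
      rw [hE, card_singleton] at h4
      exact absurd hp.one_lt (by omega)
  rw [hfp, ZMod.natCast_eq_zero_iff] at h0
  have h1 : {x ∈ T | x ^ p = s ^ p} ⊆ ({e : H | e ^ p = 1} : Finset H).image (s * ·) := fun x hx =>
    mem_image.2 ⟨s⁻¹ * x, by simp [mul_pow, (mem_filter.1 hx).2], by simp⟩
  have h2 := eq_of_subset_of_card_le h1 (by
    rw [card_image_of_injective _ (mul_right_injective s), hE]
    exact Nat.le_of_dvd (card_pos.2 ⟨s, by simp [hs]⟩) h0)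
  have h3 : s * e ∈ ({e : H | e ^ p = 1} : Finset H).image (s * ·) := mem_image.2 ⟨e, by simp [he], rfl⟩
  rw [← h2] at h3
  exact (mem_filter.1 h3).1

theorem schur_core (hΓ : ∀ h, Equiv.mulLeft h ∈ Γ) {p : ℕ} (hp : p.Prime) (hE : #{e : H | e ^ p = 1} = p)
    (hne : ∃ h : H, h ^ p ≠ 1)
    (hprim : ∀ U : Subgroup H, (∀ a ∈ U, ∀ b, SR Γ a b → b ∈ U) → U = ⊥ ∨ U = ⊤)
    {a b : H} (ha : a ≠ 1) (hb : b ≠ 1) : SR Γ a b := by
  classical
  let T : H → Finset H := fun t => {x | SR Γ t x}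
  have hTm : ∀ t x, x ∈ T t ↔ SR Γ t x := fun t x => by simp [T]
  have hT : ∀ t, ∀ a ∈ T t, ∀ b, SR Γ a b → b ∈ T t := fun t a ha b h => (hTm _ _).2 (((hTm _ _).1 ha).trans h)
  have h1 : ∀ t, t ≠ 1 → (1 : H) ∉ T t := fun t ht h => ht ((hTm _ _).1 h).symm.eq_one
  obtain ⟨e0, he0, he1⟩ : ∃ e0 : H, e0 ^ p = 1 ∧ e0 ≠ 1 := by
    obtain ⟨x, hx, hx1⟩ := exists_mem_ne (s := ({e : H | e ^ p = 1} : Finset H)) (by rw [hE]; exact hp.one_lt) 1
    exact ⟨x, (mem_filter.1 hx).2, hx1⟩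
  have key : ∀ t, t ≠ 1 → p ≤ 2 * #{x ∈ T t | x ^ p = 1} := by
    intro t ht
    have s1 := fun {s} hs hsp {e} he => schur_step1 hΓ hp hE hprim (hT t) (s := s) hs hsp (e := e) he
    obtain ⟨a, ha, hap⟩ : ∃ a ∈ T t, a ^ p = 1 := by
      by_contra hc
      push Not at hc
      rcases hprim _ (SR.stab hΓ (hT t)) with h | h
      · refine he1 (Subgroup.mem_bot.1 (h ▸ ?_))
        rw [MulAction.mem_stabilizer_finset']
        intro x hx
        rw [smul_eq_mul, mul_comm]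
        exact s1 hx (hc x hx) he0
      · have h2 : t⁻¹ ∈ MulAction.stabilizer H (T t) := h ▸ Subgroup.mem_top _
        rw [MulAction.mem_stabilizer_finset'] at h2
        exact h1 t ht (by simpa using h2 ((hTm _ _).2 (SR.refl t)))
    obtain ⟨u, hu, hup⟩ : ∃ u ∈ T t, u ^ p ≠ 1 := by
      by_contra hc
      push Not at hc
      rcases hprim _ (SR.closure hΓ (A := (T t : Set H)) (hT t)) with h | h
      · exact ht (Subgroup.mem_bot.1 (h ▸ Subgroup.subset_closure ((hTm _ _).2 (SR.refl t))))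
      · obtain ⟨x, hx⟩ := hne
        have h2 : Subgroup.closure (T t : Set H) ≤ (powMonoidHom p : H →* H).ker :=
          (Subgroup.closure_le _).2 fun y hy => hc y hy
        exact hx (h2 (h ▸ Subgroup.mem_top x))
    have hN : ∀ x y, SR Γ x y → #{s ∈ T t | s⁻¹ * x ∈ T t} ≤ #{s ∈ T t | s⁻¹ * y ∈ T t} := by
      rintro x _ ⟨π, k1, k2, rfl⟩
      refine card_le_card_of_injOn π (fun s hs => ?_) π.injective.injOn
      obtain ⟨k3, k4⟩ := mem_filter.1 hs
      exact mem_filter.2 ⟨hT t _ k3 _ ⟨π, k1, k2, rfl⟩, hT t _ k4 _ (SR.key hΓ k1 s x)⟩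
    have hau : SR Γ a u := ((hTm _ _).1 ha).symm.trans ((hTm _ _).1 hu)
    have hNe := le_antisymm (hN _ _ hau) (hN _ _ hau.symm)
    set d := #{x ∈ T t | x ^ p = 1} with hd
    have hd0 : 0 < d := card_pos.2 ⟨a, mem_filter.2 ⟨ha, hap⟩⟩
    have hinv : ∀ e : H, e ^ p = 1 → e⁻¹ ^ p = 1 := fun e he => by rw [inv_pow, he, inv_one]
    have e1 : ∃ c k, c ≤ d ∧ #{s ∈ T t | s⁻¹ * a ∈ T t} = c + p * k := by
      obtain ⟨k, hk⟩ := dvd_card_of_inv hE {s ∈ {s ∈ T t | s⁻¹ * a ∈ T t} | ¬ s ^ p = 1} fun s hs e he => by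
        simp only [mem_filter] at hs ⊢
        refine ⟨⟨s1 hs.1.1 hs.2 he, ?_⟩, by simpa [mul_pow, he] using hs.2⟩
        have := s1 hs.1.2 (by simpa [mul_pow, hap] using hs.2) (hinv e he)
        convert this using 1
        simp [mul_comm, mul_left_comm, mul_assoc]
      refine ⟨_, k, ?_, by rw [← hk, card_filter_add_card_filter_not (fun s => s ^ p = 1)]⟩
      exact card_le_card fun s hs => by
        simp only [mem_filter] at hs ⊢
        exact ⟨hs.1.1, hs.2⟩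
    have e2 : ∃ k, #{s ∈ T t | s⁻¹ * u ∈ T t} = 2 * d + p * k := by
      obtain ⟨k, hk⟩ := dvd_card_of_inv hE
          {s ∈ {s ∈ {s ∈ T t | s⁻¹ * u ∈ T t} | ¬ s ^ p = 1} | ¬ (s⁻¹ * u) ^ p = 1} fun s hs e he => by
        simp only [mem_filter] at hs ⊢
        have e3 : (s * e)⁻¹ * u = s⁻¹ * u * e⁻¹ := by simp [mul_comm, mul_left_comm, mul_assoc]
        rw [e3]
        exact ⟨⟨⟨s1 hs.1.1.1 hs.1.2 he, s1 hs.1.1.2 hs.2 (hinv e he)⟩, by simpa [mul_pow, he] using hs.1.2⟩,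
          by rw [mul_pow, hinv e he, mul_one]; exact hs.2⟩
      have e4 : #{s ∈ {s ∈ T t | s⁻¹ * u ∈ T t} | s ^ p = 1} = d := by
        congr 1
        ext s
        simp only [mem_filter]
        exact ⟨fun h => ⟨h.1.1, h.2⟩, fun h => ⟨⟨h.1, mul_comm u s⁻¹ ▸ s1 hu hup (hinv s h.2)⟩, h.2⟩⟩
      have e5 : #{s ∈ {s ∈ {s ∈ T t | s⁻¹ * u ∈ T t} | ¬ s ^ p = 1} | (s⁻¹ * u) ^ p = 1} = d := by
        refine card_nbij' (fun s => s⁻¹ * u) (fun e => u * e⁻¹) (fun s hs => ?_) (fun e he => ?_) (fun s _ => by simp [mul_comm, mul_left_comm])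
          (fun s _ => by simp [mul_comm, mul_left_comm])
        · simp only [coe_filter, mem_filter, Set.mem_ofPred_eq] at hs ⊢
          exact ⟨hs.1.1.2, hs.2⟩
        · simp only [coe_filter, mem_filter, Set.mem_ofPred_eq] at he ⊢
          have e3 : (u * e⁻¹)⁻¹ * u = e := by simp
          rw [e3]
          exact ⟨⟨⟨s1 hu hup (hinv e he.2), he.1⟩, by rw [mul_pow, hinv e he.2, mul_one]; exact hup⟩, he.2⟩
      refine ⟨k, ?_⟩
      rw [← card_filter_add_card_filter_not (fun s => s ^ p = 1), e4,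
        ← card_filter_add_card_filter_not (s := {s ∈ {s ∈ T t | s⁻¹ * u ∈ T t} | ¬ s ^ p = 1}) (fun s => (s⁻¹ * u) ^ p = 1), e5, hk]
      ring
    obtain ⟨c, k1, hc, e1⟩ := e1
    obtain ⟨k2, e2⟩ := e2
    by_contra hlt
    have e3 := congrArg (· % p) (e1.symm.trans (hNe.trans e2))
    simp only [Nat.add_mul_mod_self_left] at e3
    rw [Nat.mod_eq_of_lt (by omega), Nat.mod_eq_of_lt (by omega)] at e3
    omega
  by_contra hab
  have k1 := key a ha
  have k2 := key b hb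
  have k3 : Disjoint {x ∈ T a | x ^ p = 1} {x ∈ T b | x ^ p = 1} := by
    rw [disjoint_left]
    intro x hx hx'
    exact hab (((hTm _ _).1 (mem_filter.1 hx).1).trans ((hTm _ _).1 (mem_filter.1 hx').1).symm)
  have k4 : {x ∈ T a | x ^ p = 1} ∪ {x ∈ T b | x ^ p = 1} ⊆ ({e : H | e ^ p = 1} : Finset H).erase 1 := by
    intro x hx
    rcases mem_union.1 hx with h | h
    · exact mem_erase.2 ⟨fun h' => h1 a ha (h' ▸ (mem_filter.1 h).1), by simpa using (mem_filter.1 h).2⟩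
    · exact mem_erase.2 ⟨fun h' => h1 b hb (h' ▸ (mem_filter.1 h).1), by simpa using (mem_filter.1 h).2⟩
  have k5 := card_le_card k4
  rw [card_union_of_disjoint k3, card_erase_of_mem (by simp), hE] at k5
  have := hp.pos
  omega

theorem card_pow_eq_one_cyclic [IsCyclic H] {p : ℕ} (hp : p.Prime) (hd : p ∣ Fintype.card H) :
    #{e : H | e ^ p = 1} = p := by
  haveI := Fact.mk hp
  refine le_antisymm (IsCyclic.card_pow_eq_one_le hp.pos) ?_
  obtain ⟨u, hu⟩ := exists_prime_orderOf_dvd_card p hd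
  classical
  have h1 : ((Subgroup.zpowers u : Set H).toFinset) ⊆ ({e : H | e ^ p = 1} : Finset H) := by
    intro x hx
    obtain ⟨k, rfl⟩ := Set.mem_toFinset.1 hx
    simp only [mem_filter, mem_univ, true_and]
    rw [← zpow_natCast, ← zpow_mul, mul_comm, zpow_mul, zpow_natCast, ← hu, pow_orderOf_eq_one, one_zpow]
  have h2 := card_le_card h1
  rwa [Set.toFinset_card, ← Nat.card_eq_fintype_card, SetLike.coe_sort_coe, Nat.card_zpowers, hu] at h2

/-- The Schur-Wielandt theorem for an action. -/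
theorem schur_action {G Ω : Type*} [Group G] [MulAction G Ω] (ι : H →* G) (ω : Ω)
    (hb : Function.Bijective fun h => ι h • ω) {p : ℕ} (hp : p.Prime) (hE : #{e : H | e ^ p = 1} = p)
    (hne : ∃ h : H, h ^ p ≠ 1) :
    (∃ U : Subgroup H, U ≠ ⊥ ∧ U ≠ ⊤ ∧ ∀ (g : G) (a b a' b' : H), g • ι a • ω = ι a' • ω → g • ι b • ω = ι b' • ω →
      a⁻¹ * b ∈ U → a'⁻¹ * b' ∈ U) ∨ MulAction.IsMultiplyPretransitive G Ω 2 := by
  let β : H ≃ Ω := Equiv.ofBijective _ hb
  have hβ : ∀ h, β h = ι h • ω := fun _ => rfl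
  let φ : G →* Equiv.Perm H := (Equiv.permCongrHom β.symm).toMonoidHom.comp (MulAction.toPermHom G Ω)
  have hφ : ∀ g h, β (φ g h) = g • β h := fun g h => by simp [φ]
  have hΓ : ∀ h, Equiv.mulLeft h ∈ φ.range := fun h => ⟨ι h, Equiv.ext fun x => β.injective (by
    rw [hφ, hβ, hβ, ← mul_smul, ← map_mul]; rfl)⟩
  by_cases hprim : ∀ U : Subgroup H, (∀ a ∈ U, ∀ b, SR φ.range a b → b ∈ U) → U = ⊥ ∨ U = ⊤
  · right
    rw [MulAction.is_two_pretransitive_iff]
    intro x y z w hxy hzw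
    obtain ⟨a, rfl⟩ := β.surjective x
    obtain ⟨b, rfl⟩ := β.surjective y
    obtain ⟨c, rfl⟩ := β.surjective z
    obtain ⟨d, rfl⟩ := β.surjective w
    obtain ⟨_, ⟨g, rfl⟩, h1, h2⟩ := schur_core hΓ hp hE hne hprim (a := a⁻¹ * b) (b := c⁻¹ * d)
      (fun h => hxy (by rw [inv_mul_eq_one.1 h])) (fun h => hzw (by rw [inv_mul_eq_one.1 h]))
    have k1 := hφ g 1
    have k2 := hφ g (a⁻¹ * b)
    rw [h1, hβ] at k1
    rw [h2, hβ, hβ] at k2
    simp only [map_one, one_smul, map_mul, map_inv, mul_smul] at k1 k2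
    refine ⟨ι c * g * (ι a)⁻¹, ?_, ?_⟩
    · simp only [hβ, mul_smul, inv_smul_smul, ← k1]
    · simp only [hβ, mul_smul, ← k2, smul_inv_smul]
  · left
    push Not at hprim
    obtain ⟨U, hU, h1, h2⟩ := hprim
    refine ⟨U, h1, h2, fun g a b a' b' ha hb hab => ?_⟩
    have k1 : φ g a = a' := β.injective (by rw [hφ, hβ, hβ, ha])
    have k2 : φ g b = b' := β.injective (by rw [hφ, hβ, hβ, hb])
    rw [← k1, ← k2]
    exact hU _ hab _ (SR.key hΓ ⟨g, rfl⟩ a b)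

theorem not_preprimitive_of_U {G Ω : Type*} [Group G] [MulAction G Ω] (ι : H →* G) (ω : Ω)
    (hb : Function.Bijective fun h => ι h • ω) {U : Subgroup H} (h1 : U ≠ ⊥) (h2 : U ≠ ⊤)
    (hU : ∀ (g : G) (a b a' b' : H), g • ι a • ω = ι a' • ω → g • ι b • ω = ι b' • ω →
      a⁻¹ * b ∈ U → a'⁻¹ * b' ∈ U) : ¬ MulAction.IsPreprimitive G Ω := by
  intro hprim
  have hB : MulAction.IsBlock G ((fun h => ι h • ω) '' U) := by
    rw [MulAction.isBlock_iff_smul_eq_of_mem]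
    have key : ∀ (g : G) (x : Ω), x ∈ (fun h => ι h • ω) '' U → g • x ∈ (fun h => ι h • ω) '' U →
        ∀ y ∈ (fun h => ι h • ω) '' U, g • y ∈ (fun h => ι h • ω) '' U := by
      rintro g _ ⟨a, ha, rfl⟩ ⟨a', ha', h⟩ _ ⟨b, hb', rfl⟩
      obtain ⟨b', hb''⟩ := hb.2 (g • ι b • ω)
      have := hU g a b a' b' h.symm hb''.symm (mul_mem (inv_mem ha) hb')
      exact ⟨b', (mul_mem_cancel_left (inv_mem ha')).1 this, hb''⟩
    intro g x hx hx'
    ext y
    constructor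
    · rintro ⟨z, hz, rfl⟩
      exact key g x hx hx' z hz
    · intro hy
      exact ⟨g⁻¹ • y, key g⁻¹ _ hx' (by rwa [inv_smul_smul]) y hy, smul_inv_smul g y⟩
  rcases hprim.isTrivialBlock_of_isBlock hB with h | h
  · refine h1 (eq_bot_iff.2 fun u hu => hb.1 (h ⟨u, hu, rfl⟩ ⟨1, one_mem _, rfl⟩))
  · refine h2 (eq_top_iff.2 fun u _ => ?_)
    obtain ⟨v, hv, h'⟩ := h ▸ Set.mem_univ (ι u • ω)
    exact hb.1 h' ▸ hv

end CfsgH8
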